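import Mathlib
import Cfsg.Agent.Lib.DGN.Basic
import Cfsg.Agent.Lib.Blk89.Linear
import Cfsg.Agent.Lib.Blk89.ItoMichler
import Cfsg.Agent.Lib.Char.RealChar
import Cfsg.Agent.Lib.Char.FrobSchur
import Cfsg.Agent.Lib.Char.Degree
import Cfsg.Agent.Lib.CharDeep.LinearChar
import Cfsg.Agent.Lib.PermMod.PrimeNormal

/-!
# Real characters of odd degree: basic facts

* `Re X`: the real-valued irreducible characters of odd degree.
* parity lemmas: a character of odd degree has a constituent of odd degree; if it is real, a real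
  one.
* `kernel_of_real_odd`: a real irreducible character of odd degree contains in its kernel every
  normal subgroup of odd order.
* `card_re_of_surj`: the count is unchanged under a quotient of odd order kernel.
-/

set_option autoImplicit false
set_option linter.unusedSectionVars false
set_option linter.style.haveILetI false

namespace Cfsg.Agent.Lib.ReOdd.Basic

open Module Finset
open Cfsg Cfsg.Agent.Lib.Char.Basic Cfsg.Agent.Lib.Char.Ortho Cfsg.Agent.Lib.Char.Complete
open Cfsg.Agent.Lib.Char.Degree Cfsg.Agent.Lib.Char.Linear Cfsg.Agent.Lib.Blk89.Basic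
open Cfsg.Agent.Lib.Char.Conj Cfsg.Agent.Lib.Char.Clifford Cfsg.Agent.Lib.Char.FrobSchur
open scoped ComplexConjugate

universe u v

/-- The real-valued irreducible characters of odd degree. -/
abbrev Re (X : Type u) [Group X] : Type u :=
  {χ : IrrCharacter X // (∀ g : X, ((χ : X → ℂ) g).im = 0) ∧ Odd (charDegree (χ : X → ℂ))}

section Degree

variable {X : Type u} {Y : Type v} [Group X] [Group Y]

theorem charDegree_comp (f : X →* Y) (φ : Y → ℂ) : charDegree (φ ∘ f) = charDegree φ := by
  unfold charDegree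
  simp

theorem charDegree_mul_hom {χ : X → ℂ} (lam : X →* ℂˣ) :
    charDegree (fun g => ((lam g : ℂˣ) : ℂ) * χ g) = charDegree χ := by
  unfold charDegree
  simp

theorem charDegree_conj (χ : X → ℂ) : charDegree (fun g => conj (χ g)) = charDegree χ := by
  unfold charDegree
  simp

theorem charDegree_restrict (N : Subgroup X) (χ : X → ℂ) :
    charDegree (fun n : N => χ n) = charDegree χ := by
  unfold charDegree
  simp

end Degree

section Parity

variable {X : Type u} [Group X] [Fintype X]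

/-- A character of odd degree has an irreducible constituent of odd degree. -/
theorem exists_constituent_odd {ψ : X → ℂ} (hψ : IsCharacter X ψ) (hodd : Odd (charDegree ψ)) :
    ∃ i : IrrCharacter X, classInner ψ (i : X → ℂ) ≠ 0 ∧ Odd (charDegree (i : X → ℂ)) := by
  by_contra h
  push Not at h
  have h1 := dvd_deg_of_forall_constituent hψ 2 (fun μ hμ =>
    (Nat.not_odd_iff_even.mp (h μ hμ)).two_dvd)
  exact (Nat.not_even_iff_odd.mpr hodd) (even_iff_two_dvd.mpr h1)

/-- Hermitian symmetry under the bar map. -/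
theorem classInner_conj_right {ψ φ : X → ℂ} (hreal : ∀ g, (ψ g).im = 0) :
    classInner ψ (fun g => conj (φ g)) = conj (classInner ψ φ) := by
  rw [classInner_def, classInner_def, map_mul, map_sum]
  have h : conj ((Nat.card X : ℂ)⁻¹) = (Nat.card X : ℂ)⁻¹ := by
    simp
  rw [h]
  congr 1
  refine Finset.sum_congr rfl fun g _ => ?_
  rw [map_mul, Complex.conj_eq_iff_im.mpr (hreal g)]

/-- A real character of odd degree has a real irreducible constituent of odd degree. -/
theorem exists_real_constituent_odd {ψ : X → ℂ} (hψ : IsCharacter X ψ)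
    (hreal : ∀ g, (ψ g).im = 0) (hodd : Odd (charDegree ψ)) :
    ∃ i : IrrCharacter X, classInner ψ (i : X → ℂ) ≠ 0 ∧ (∀ g, ((i : X → ℂ) g).im = 0) ∧
      Odd (charDegree (i : X → ℂ)) := by
  classical
  have := finite_irrCharacter (G := X)
  letI := Fintype.ofFinite (IrrCharacter X)
  obtain ⟨m, hm, hin, hdeg⟩ := exists_mult hψ
  by_contra hcon
  push Not at hcon
  let bar : IrrCharacter X → IrrCharacter X := fun i =>
    ⟨fun g => conj ((i : X → ℂ) g), isIrr_conj i.2⟩
  have hbarbar : ∀ i, bar (bar i) = i := by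
    intro i
    apply Subtype.ext
    funext g
    simp [bar]
  have hmbar : ∀ i, m (bar i) = m i := by
    intro i
    have h1 : classInner ψ ((bar i : IrrCharacter X) : X → ℂ) = conj (classInner ψ (i : X → ℂ)) :=
      classInner_conj_right hreal
    rw [hin, hin] at h1
    simp only [map_natCast] at h1
    exact_mod_cast h1
  have hdegbar : ∀ i : IrrCharacter X, charDegree ((bar i : IrrCharacter X) : X → ℂ) =
      charDegree (i : X → ℂ) := fun i => charDegree_conj _
  have hsum : ((∑ i : IrrCharacter X, m i * charDegree (i : X → ℂ) : ℕ) : ZMod 2) = 0 := by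
    push_cast
    refine Finset.sum_involution (fun i _ => bar i) ?_ ?_ (fun _ _ => Finset.mem_univ _)
      (fun i _ => hbarbar i)
    · intro i _
      rw [hmbar, hdegbar, ← two_mul]
      have : (2 : ZMod 2) = 0 := rfl
      rw [this, zero_mul]
    · intro i _ hne heq
      apply hne
      by_cases hm0 : m i = 0
      · simp [hm0]
      have hreal' : ∀ g, ((i : X → ℂ) g).im = 0 := by
        intro g
        have h2 : conj ((i : X → ℂ) g) = (i : X → ℂ) g :=
          congrFun (congrArg Subtype.val heq) g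
        exact Complex.conj_eq_iff_im.mp h2
      have h3 := hcon i (by rw [hin]; exact_mod_cast hm0) hreal'
      rw [Nat.not_odd_iff_even] at h3
      have h4 : ((charDegree (i : X → ℂ) : ℕ) : ZMod 2) = 0 :=
        (ZMod.natCast_eq_zero_iff_even).mpr h3
      rw [h4, mul_zero]
  rw [← hdeg] at hsum
  have h5 : Even (charDegree ψ) := (ZMod.natCast_eq_zero_iff_even).mp hsum
  exact (Nat.not_even_iff_odd.mpr hodd) h5

/-- In a group of odd order, a real character of odd degree contains the principal character. -/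
theorem classInner_one_ne_zero_of_odd (hX : Odd (Nat.card X)) {ψ : X → ℂ}
    (hψ : IsCharacter X ψ) (hreal : ∀ g, (ψ g).im = 0) (hodd : Odd (charDegree ψ)) :
    classInner ψ (fun _ => 1) ≠ 0 := by
  obtain ⟨i, hi, hr, -⟩ := exists_real_constituent_odd hψ hreal hodd
  have := Cfsg.Agent.Lib.Char.RealChar.eq_one_of_real_of_odd hX i.2 hr
  rwa [this] at hi

/-- An irreducible character of odd degree of a `2`-group is linear. -/
theorem deg_one_of_odd {hP : IsPGroup 2 X} {χ : X → ℂ} (hχ : IsIrrCharacter X χ)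
    (hodd : Odd (charDegree χ)) : χ 1 = 1 := by
  have h1 := charDegree_dvd_card hχ
  obtain ⟨k, hk⟩ := IsPGroup.iff_card.mp hP
  rw [hk] at h1
  obtain ⟨j, -, hj⟩ := (Nat.dvd_prime_pow Nat.prime_two).mp h1
  have h2 : charDegree χ = 1 := by
    rcases j with _ | j
    · simpa using hj
    · exfalso
      rw [hj] at hodd
      exact (Nat.not_even_iff_odd.mpr hodd) (by simp [pow_succ])
  have h3 := charDegree_natCast (isCharacter_of_isIrrCharacter hχ)
  rw [h2] at h3
  simpa using h3.symm

/-- A character of odd degree of a `2`-group has a linear constituent. -/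
theorem exists_linear_constituent (hP : IsPGroup 2 X) {ψ : X → ℂ} (hψ : IsCharacter X ψ)
    (hodd : Odd (charDegree ψ)) :
    ∃ β : X →* ℂˣ, classInner ψ (fun x => ((β x : ℂˣ) : ℂ)) ≠ 0 := by
  obtain ⟨i, hi, ho⟩ := exists_constituent_odd hψ hodd
  have h1 := deg_one_of_odd (hP := hP) i.2 ho
  obtain ⟨β, hβ⟩ := exists_hom_of_deg_one (isCharacter_of_isIrrCharacter i.2) h1
  refine ⟨β, ?_⟩
  rw [← hβ]
  exact hi

/-- A real linear character squares to one. -/
theorem hom_mul_self_of_real [Finite X] {β : X →* ℂˣ} (hr : ∀ x, ((β x : ℂˣ) : ℂ).im = 0) (x : X) :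
    β x * β x = 1 := by
  apply Units.ext
  rw [Units.val_mul, Units.val_one]
  have h1 := Complex.conj_eq_iff_im.mpr (hr x)
  have h2 : ((β x : ℂˣ) : ℂ) * conj ((β x : ℂˣ) : ℂ) = 1 := by
    rw [Complex.mul_conj, Complex.normSq_eq_norm_sq, norm_hom_eq_one]
    simp
  rwa [h1] at h2

/-- A linear character squaring to one is real. -/
theorem im_eq_zero_of_hom_mul_self {β : X →* ℂˣ} (h : ∀ x, β x * β x = 1) (x : X) :
    ((β x : ℂˣ) : ℂ).im = 0 := by
  have h1 : ((β x : ℂˣ) : ℂ) * ((β x : ℂˣ) : ℂ) = 1 := by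
    rw [← Units.val_mul, h x, Units.val_one]
  have h2 : ((β x : ℂˣ) : ℂ) = 1 ∨ ((β x : ℂˣ) : ℂ) = -1 := mul_self_eq_one_iff.mp h1
  rcases h2 with h2 | h2 <;> simp [h2]

/-- A real character of odd degree of a `2`-group has a real linear constituent. -/
theorem exists_real_linear_constituent (hP : IsPGroup 2 X) {ψ : X → ℂ} (hψ : IsCharacter X ψ)
    (hreal : ∀ g, (ψ g).im = 0) (hodd : Odd (charDegree ψ)) :
    ∃ β : X →* ℂˣ, (∀ x, β x * β x = 1) ∧ classInner ψ (fun x => ((β x : ℂˣ) : ℂ)) ≠ 0 := by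
  obtain ⟨i, hi, hr, ho⟩ := exists_real_constituent_odd hψ hreal hodd
  have h1 := deg_one_of_odd (hP := hP) i.2 ho
  obtain ⟨β, hβ⟩ := exists_hom_of_deg_one (isCharacter_of_isIrrCharacter i.2) h1
  refine ⟨β, ?_, ?_⟩
  · apply hom_mul_self_of_real
    intro x
    have := hr x
    rw [hβ] at this
    exact this
  · rw [← hβ]
    exact hi

end Parity

section NoInv

variable {X : Type u} [Group X]

/-- A subgroup without involutions has odd order. -/
theorem odd_card_of_noInv [Finite X] {K : Subgroup X} (h : ∀ k ∈ K, k * k = 1 → k = 1) :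
    Odd (Nat.card K) := by
  by_contra hev
  rw [Nat.not_odd_iff_even] at hev
  have : Fact (Nat.Prime 2) := ⟨Nat.prime_two⟩
  obtain ⟨x, hx⟩ := exists_prime_orderOf_dvd_card' (G := K) 2 hev.two_dvd
  have h2 : (x : X) * x = 1 := by
    have h3 : x ^ 2 = 1 := by rw [← hx, pow_orderOf_eq_one]
    have h4 : x * x = 1 := by rwa [pow_two] at h3
    have := congrArg (Subtype.val) h4
    simpa using this
  have h5 := h x x.2 h2
  have h6 : x = 1 := Subtype.ext h5
  rw [h6, orderOf_one] at hx
  omega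

/-- The dichotomy for minimal choices: a nontrivial solvable group has a nontrivial abelian normal
subgroup without involutions, or a nontrivial normal subgroup of exponent `2`. -/
theorem exists_normal_dichotomy [Finite X] [Group.IsSolvable X] [Nontrivial X] :
    (∃ O : Subgroup X, O.Normal ∧ O ≠ ⊥ ∧ (∀ a ∈ O, ∀ b ∈ O, a * b = b * a) ∧
      ∀ o ∈ O, o * o = 1 → o = 1) ∨
    (∃ M : Subgroup X, M.Normal ∧ M ≠ ⊥ ∧ ∀ m ∈ M, m * m = 1) := by
  obtain ⟨B, hBn, hB, hBc⟩ := Cfsg.Agent.Lib.PermMod.PrimeNormal.exists_abelian_normal (G := X)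
  have hcomm : ∀ a ∈ B, ∀ b ∈ B, a * b = b * a := by
    intro a ha b hb
    have := hBc.is_comm.comm ⟨a, ha⟩ ⟨b, hb⟩
    exact congrArg Subtype.val this
  let M : Subgroup X :=
    { carrier := {b | b ∈ B ∧ b * b = 1}
      mul_mem' := by
        rintro a b ⟨ha, ha'⟩ ⟨hb, hb'⟩
        refine ⟨B.mul_mem ha hb, ?_⟩
        calc a * b * (a * b) = a * (b * a) * b := by group
          _ = a * (a * b) * b := by rw [hcomm b hb a ha]
          _ = (a * a) * (b * b) := by group
          _ = 1 := by rw [ha', hb', one_mul]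
      one_mem' := ⟨B.one_mem, one_mul 1⟩
      inv_mem' := by
        rintro a ⟨ha, ha'⟩
        refine ⟨B.inv_mem ha, ?_⟩
        rw [← mul_inv_rev, ha', inv_one] }
  by_cases hM : M = ⊥
  · left
    refine ⟨B, hBn, hB, hcomm, fun o ho h2 => ?_⟩
    have : o ∈ M := ⟨ho, h2⟩
    rw [hM] at this
    exact this
  · right
    refine ⟨M, ⟨?_⟩, hM, fun m hm => hm.2⟩
    rintro n ⟨hn, hn'⟩ g
    refine ⟨hBn.conj_mem n hn g, ?_⟩
    calc g * n * g⁻¹ * (g * n * g⁻¹) = g * (n * n) * g⁻¹ := by group
      _ = 1 := by rw [hn']; group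

end NoInv

section Kernel

variable {X : Type u} [Group X] [Fintype X]

/-- A real irreducible character of odd degree is trivial on normal subgroups of odd order. -/
theorem kernel_of_real_odd {O : Subgroup X} (hO : O.Normal) (hodd : Odd (Nat.card O))
    {χ : X → ℂ} (hχ : IsIrrCharacter X χ) (hreal : ∀ g, (χ g).im = 0)
    (hdeg : Odd (charDegree χ)) {o : X} (ho : o ∈ O) : χ o = χ 1 := by
  classical
  letI : Fintype O := Fintype.ofFinite _
  have hres : IsCharacter O (fun n : O => χ n) :=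
    isCharacter_restrict O (isCharacter_of_isIrrCharacter hχ)
  have hcon : classInner (fun n : O => χ n) (fun _ => 1) ≠ 0 :=
    classInner_one_ne_zero_of_odd hodd hres (fun n => hreal n)
      (by rw [charDegree_restrict]; exact hdeg)
  have hcl := clifford_restrict hO hχ (isIrr_one (G := O)) hcon
  have horb : orbitFinset hO (fun _ : O => (1 : ℂ)) = {fun _ => 1} := by
    ext φ
    rw [mem_orbitFinset, Finset.mem_singleton]
    constructor
    · rintro ⟨g, rfl⟩
      rfl
    · rintro rfl
      exact ⟨1, rfl⟩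
  rw [horb, Finset.sum_singleton] at hcl
  have h1 := congrFun hcl ⟨o, ho⟩
  have h2 := congrFun hcl 1
  simp only [Pi.smul_apply, OneMemClass.coe_one] at h1 h2
  rw [h1, h2]

/-- Restriction of `card_re_of_surj`: real odd irreducible characters descend. -/
theorem exists_descend_re {Q : Type u} [Group Q] (f : X →* Q) (hf : Function.Surjective f)
    (hker : ∀ k ∈ f.ker, k * k = 1 → k = 1) {χ : X → ℂ} (hχ : IsIrrCharacter X χ)
    (hreal : ∀ g, (χ g).im = 0) (hdeg : Odd (charDegree χ)) :
    ∃ φ : Q → ℂ, IsIrrCharacter Q φ ∧ χ = φ ∘ f :=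
  isIrrCharacter_descend f hf hχ fun _ hk =>
    kernel_of_real_odd (f.normal_ker) (odd_card_of_noInv hker) hχ hreal hdeg hk

end Kernel

section Surj

variable {X Q : Type u} [Group X] [Group Q]

theorem card_re_of_surj [Finite X] (f : X →* Q) (hf : Function.Surjective f)
    (hker : ∀ k ∈ f.ker, k * k = 1 → k = 1) : Nat.card (Re X) = Nat.card (Re Q) := by
  classical
  letI := Fintype.ofFinite X
  let F : Re Q → Re X := fun ζ =>
    ⟨⟨(ζ.1 : Q → ℂ) ∘ f, Cfsg.Agent.Lib.Char.Conj.isIrrCharacter_comp f hf ζ.1.2⟩, fun g => ζ.2.1 (f g),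
      by
        show Odd (charDegree ((ζ.1 : Q → ℂ) ∘ f))
        rw [charDegree_comp]
        exact ζ.2.2⟩
  refine (Nat.card_eq_of_bijective F ⟨?_, ?_⟩).symm
  · intro a b hab
    apply Subtype.ext
    apply Subtype.ext
    funext q
    obtain ⟨x, rfl⟩ := hf q
    have := congrFun (congrArg (fun z : Re X => ((z.1 : IrrCharacter X) : X → ℂ)) hab) x
    exact this
  · intro χ
    obtain ⟨φ, hφ, hχφ⟩ := exists_descend_re f hf hker χ.1.2 χ.2.1 χ.2.2
    refine ⟨⟨⟨φ, hφ⟩, fun q => ?_, ?_⟩, ?_⟩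
    · obtain ⟨x, rfl⟩ := hf q
      have := χ.2.1 x
      rw [hχφ] at this
      exact this
    · show Odd (charDegree φ)
      rw [← charDegree_comp f, ← hχφ]
      exact χ.2.2
    · apply Subtype.ext
      apply Subtype.ext
      exact hχφ.symm

theorem card_re_of_mulEquiv [Finite X] (e : X ≃* Q) : Nat.card (Re X) = Nat.card (Re Q) :=
  card_re_of_surj e.toMonoidHom e.surjective (fun k hk _ => by
    have h1 : e k = 1 := hk
    exact (map_eq_one_iff e e.injective).mp h1)

end Surj

section Syl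

variable {X Q : Type u} [Group X] [Group Q]

/-- A `2`-subgroup of odd index. -/
def IsSyl2 (P : Subgroup X) : Prop := IsPGroup 2 P ∧ ¬ 2 ∣ P.index

/-- The normalizer, as a subgroup. -/
abbrev Nr (P : Subgroup X) : Subgroup X := Subgroup.normalizer (P : Set X)

theorem IsSyl2.map {P : Subgroup X} (hP : IsSyl2 P) (f : X →* Q) (hf : Function.Surjective f) :
    IsSyl2 (P.map f) :=
  ⟨hP.1.map f, fun h => hP.2 (h.trans (Subgroup.index_map_dvd P hf))⟩

theorem IsSyl2.subgroupOf {P T : Subgroup X} (hP : IsSyl2 P) (hPT : P ≤ T) :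
    IsSyl2 (P.subgroupOf T) := by
  refine ⟨?_, fun h => hP.2 ?_⟩
  · intro g
    obtain ⟨k, hk⟩ := hP.1 ⟨g, g.2⟩
    refine ⟨k, ?_⟩
    apply Subtype.ext
    apply Subtype.ext
    have := congrArg (Subtype.val) hk
    simpa using this
  · rw [← Subgroup.relIndex_mul_index hPT]
    exact Dvd.dvd.mul_right h _

theorem not_two_dvd_relIndex {P T : Subgroup X} (hP : IsSyl2 P) (hPT : P ≤ T) :
    ¬ 2 ∣ P.relIndex T := (hP.subgroupOf hPT).2

/-- A normal `2`-subgroup lies in every Sylow `2`-subgroup. -/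
theorem le_of_normal [Finite X] {P M : Subgroup X} (hP : IsSyl2 P) (hM : M.Normal)
    (hM2 : IsPGroup 2 M) : M ≤ P := by
  have : Fact (Nat.Prime 2) := ⟨Nat.prime_two⟩
  obtain ⟨g, hg⟩ := Cfsg.Agent.Lib.Blk89.ItoMichler.exists_conj_le_of_not_dvd_index hM2 P hP.2
  intro m hm
  have h1 := hg (g * m * g⁻¹) (hM.conj_mem m hm g)
  have h2 : g⁻¹ * (g * m * g⁻¹) * g = m := by group
  rwa [h2] at h1

/-- Normalizer criterion in a finite group. -/
theorem mem_normalizer_of_conj_le [Finite X] {P : Subgroup X} {z : X}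
    (h : ∀ p ∈ P, z * p * z⁻¹ ∈ P) : z ∈ Nr P := by
  rw [Subgroup.mem_normalizer_iff]
  intro q
  constructor
  · exact h q
  · intro hq
    let F : P → P := fun p => ⟨z * p * z⁻¹, h p p.2⟩
    have hinj : Function.Injective F := by
      intro a b hab
      have h1 : z * (a : X) * z⁻¹ = z * b * z⁻¹ := congrArg Subtype.val hab
      exact Subtype.ext (by simpa using h1)
    obtain ⟨p, hp⟩ := (Finite.injective_iff_surjective.mp hinj) ⟨_, hq⟩
    have h1 : z * (p : X) * z⁻¹ = z * q * z⁻¹ := congrArg Subtype.val hp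
    have h2 : (p : X) = q := by simpa using h1
    rw [← h2]
    exact p.2

/-- The Frattini argument. -/
theorem exists_mul_mem_normalizer [Finite X] {P H : Subgroup X} (hP : IsSyl2 P) (hPH : P ≤ H)
    (x : X) (hx : ∀ p ∈ P, x * p * x⁻¹ ∈ H) : ∃ y ∈ H, y * x ∈ Nr P := by
  have : Fact (Nat.Prime 2) := ⟨Nat.prime_two⟩
  let B : Subgroup H := (P.map (MulAut.conj x).toMonoidHom).subgroupOf H
  have hB : IsPGroup 2 B := by
    rintro ⟨⟨b, hbH⟩, hb⟩
    have hb' : b ∈ P.map (MulAut.conj x).toMonoidHom := hb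
    obtain ⟨p, hp, rfl⟩ := hb'
    obtain ⟨k, hk⟩ := hP.1 ⟨p, hp⟩
    refine ⟨k, ?_⟩
    apply Subtype.ext
    apply Subtype.ext
    have h1 : p ^ 2 ^ k = 1 := by
      have := congrArg Subtype.val hk
      simpa using this
    show ((MulAut.conj x).toMonoidHom p) ^ 2 ^ k = 1
    rw [← map_pow, h1, map_one]
  obtain ⟨g, hg⟩ := Cfsg.Agent.Lib.Blk89.ItoMichler.exists_conj_le_of_not_dvd_index hB
    (P.subgroupOf H) (hP.subgroupOf hPH).2
  refine ⟨(g : X)⁻¹, H.inv_mem g.2, mem_normalizer_of_conj_le fun p hp => ?_⟩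
  have h1 : (⟨x * p * x⁻¹, hx p hp⟩ : H) ∈ B := by
    rw [Subgroup.mem_subgroupOf]
    exact ⟨p, hp, rfl⟩
  have h2 := hg _ h1
  rw [Subgroup.mem_subgroupOf] at h2
  have h3 : ((g⁻¹ * ⟨x * p * x⁻¹, hx p hp⟩ * g : H) : X) =
      (g : X)⁻¹ * x * p * ((g : X)⁻¹ * x)⁻¹ := by
    simp only [Subgroup.coe_mul, Subgroup.coe_inv]
    group
  rw [h3] at h2
  exact h2

/-- The Frattini argument for a quotient map. -/
theorem exists_lift_normalizer [Finite X] {P : Subgroup X} (hP : IsSyl2 P) (f : X →* Q) {x : X}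
    (hx : f x ∈ Nr (P.map f)) : ∃ n ∈ Nr P, f n = f x := by
  have hPH : P ≤ (P.map f).comap f := Subgroup.le_comap_map f P
  obtain ⟨y, hy, hyx⟩ := exists_mul_mem_normalizer hP hPH x (by
    intro p hp
    rw [Subgroup.mem_comap, map_mul, map_mul, map_inv]
    exact (Subgroup.mem_normalizer_iff.mp hx (f p)).mp (Subgroup.mem_map_of_mem f hp))
  obtain ⟨p, hp, hpy⟩ := hy
  refine ⟨p⁻¹ * (y * x), (Nr P).mul_mem (Subgroup.le_normalizer (P.inv_mem hp)) hyx, ?_⟩
  rw [map_mul, map_mul, map_inv, hpy]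
  group

end Syl

end Cfsg.Agent.Lib.ReOdd.Basic
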