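import Cfsg.Agent.Lib.ReOdd.Orb

/-!
# The real characters of odd degree of a solvable group and of a Sylow `2`-normalizer

For a finite solvable group `X` with a Sylow `2`-subgroup `P`, `X` and `N_X(P)` have the same number
of real irreducible characters of odd degree.
-/

set_option autoImplicit false
set_option linter.unusedSectionVars false
set_option linter.style.haveILetI false

namespace Cfsg.Agent.Lib.ReOdd.Count

open Module Finset
open Cfsg Cfsg.Agent.Lib.Char.Basic Cfsg.Agent.Lib.Char.Ortho Cfsg.Agent.Lib.Char.Complete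
open Cfsg.Agent.Lib.Char.Degree Cfsg.Agent.Lib.Blk89.Basic
open Cfsg.Agent.Lib.Char.Conj Cfsg.Agent.Lib.Char.Clifford Cfsg.Agent.Lib.Char.FrobSchur
open Cfsg.Agent.Lib.Char.Induced Cfsg.Agent.Lib.DGN.Basic Cfsg.Agent.Lib.ReOdd.Basic
open Cfsg.Agent.Lib.ReOdd.Over Cfsg.Agent.Lib.ReOdd.Orb
open scoped Classical ComplexConjugate

universe u

section General

variable {X Q : Type u} [Group X] [Group Q]

theorem map_mem_Nr (f : X →* Q) {P : Subgroup X} {n : X} (hn : n ∈ Nr P) : f n ∈ Nr (P.map f) :=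
  Subgroup.le_normalizer_map f (Subgroup.mem_map_of_mem f hn)

/-- The map of normalizers. -/
noncomputable def nrHom (f : X →* Q) (P : Subgroup X) : Nr P →* Nr (P.map f) :=
  (f.comp (Nr P).subtype).codRestrict (Nr (P.map f)) fun n => map_mem_Nr f n.2

theorem nrHom_coe (f : X →* Q) (P : Subgroup X) (n : Nr P) : ((nrHom f P n : Nr (P.map f)) : Q) = f n :=
  rfl

theorem nrHom_surjective [Finite X] (f : X →* Q) (hf : Function.Surjective f) {P : Subgroup X}
    (hP : IsSyl2 P) : Function.Surjective (nrHom f P) := by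
  rintro ⟨y, hy⟩
  obtain ⟨x, rfl⟩ := hf y
  obtain ⟨n, hn, hnx⟩ := exists_lift_normalizer hP f hy
  exact ⟨⟨n, hn⟩, Subtype.ext hnx⟩

/-- The step for a normal subgroup of odd order. -/
theorem step_odd [Finite X] {P : Subgroup X} (hP : IsSyl2 P) {O : Subgroup X} [O.Normal]
    (hO : ∀ o ∈ O, o * o = 1 → o = 1)
    (IH : Nat.card (Re (X ⧸ O)) = Nat.card (Re (Nr (P.map (QuotientGroup.mk' O))))) :
    Nat.card (Re X) = Nat.card (Re (Nr P)) := by
  let f := QuotientGroup.mk' O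
  have hf : Function.Surjective f := QuotientGroup.mk'_surjective O
  have h1 : Nat.card (Re X) = Nat.card (Re (X ⧸ O)) := card_re_of_surj f hf (by
    intro k hk h2
    have hkO : k ∈ O := by
      rw [MonoidHom.mem_ker] at hk
      exact (QuotientGroup.eq_one_iff k).mp hk
    exact hO k hkO h2)
  have h2 : Nat.card (Re (Nr P)) = Nat.card (Re (Nr (P.map f))) :=
    card_re_of_surj (nrHom f P) (nrHom_surjective f hf hP) (by
      intro k hk h3
      rw [MonoidHom.mem_ker] at hk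
      have h4 : f (k : X) = 1 := congrArg Subtype.val hk
      have hkO : (k : X) ∈ O := (QuotientGroup.eq_one_iff _).mp h4
      have h5 : (k : X) * k = 1 := congrArg Subtype.val h3
      exact Subtype.ext (hO _ hkO h5))
  rw [h1, IH, h2]

/-- An element of `T` normalizing `P ∩ T`, with `P ≤ T`, normalizes `P`. -/
theorem coe_mem_Nr_of_mem [Finite X] {P T : Subgroup X} {n : T}
    (hn : n ∈ Nr (P.subgroupOf T)) (hPT : P ≤ T) : (n : X) ∈ Nr P := by
  apply mem_normalizer_of_conj_le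
  intro p hp
  have h1 : (⟨p, hPT hp⟩ : T) ∈ P.subgroupOf T := by
    rw [Subgroup.mem_subgroupOf]
    exact hp
  have h2 := (Subgroup.mem_normalizer_iff.mp hn _).mp h1
  rw [Subgroup.mem_subgroupOf] at h2
  exact h2

/-- An element of `T` normalizing `P` normalizes `P ∩ T`. -/
theorem mem_Nr_subgroupOf [Finite X] {P T : Subgroup X} {n : T} (hn : (n : X) ∈ Nr P) :
    n ∈ Nr (P.subgroupOf T) := by
  apply mem_normalizer_of_conj_le
  intro p hp
  rw [Subgroup.mem_subgroupOf] at hp ⊢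
  exact (Subgroup.mem_normalizer_iff.mp hn _).mp hp

/-- Indices of stabilizers are odd. -/
theorem not_two_dvd_index_of_le {P T A : Subgroup X} (hP : IsSyl2 P) (hPT : P ≤ T) (hPA : P ≤ A) :
    ¬ 2 ∣ (T.subgroupOf A).index := fun h =>
  (hP.subgroupOf hPA).2 (h.trans (Subgroup.relIndex_dvd_of_le_left A hPT))

/-- Orders of quotients of subgroups drop. -/
theorem card_quot_lt [Finite X] {T M : Subgroup X} (hMT : M ≤ T) (hM : M ≠ ⊥)
    [(M.subgroupOf T).Normal] : Nat.card (T ⧸ M.subgroupOf T) < Nat.card X := by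
  have h1 := Subgroup.card_eq_card_quotient_mul_card_subgroup (M.subgroupOf T)
  have h2 : Nat.card T ≤ Nat.card X := Subgroup.card_le_card_group T
  have h3 : Nat.card (M.subgroupOf T) = Nat.card M :=
    Nat.card_congr (Subgroup.subgroupOfEquivOfLe hMT).toEquiv
  have h4 : 1 < Nat.card M := (Subgroup.one_lt_card_iff_ne_bot M).mpr hM
  rw [h3] at h1
  have h5 : 0 < Nat.card (T ⧸ M.subgroupOf T) := Nat.card_pos
  nlinarith

end General

section Two

variable {X : Type u} [Group X] [Fintype X]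

/-- The comparison over a fixed character `τ`. -/
theorem step_fiber [Group.IsSolvable X]
    (IH : ∀ (Y : Type u) [Group Y] [Finite Y] [Group.IsSolvable Y] (R : Subgroup Y),
      Nat.card Y < Nat.card X → IsSyl2 R → Nat.card (Re Y) = Nat.card (Re (Nr R)))
    {P M : Subgroup X} (hP : IsSyl2 P) (hMP : M ≤ P) (hMn : M.Normal) (hM : M ≠ ⊥)
    (hm2 : ∀ m ∈ M, m * m = 1) (τ : RR hMP) :
    Nat.card {χ : Re (⊤ : Subgroup X) // classInner
        (rs (hMP.trans (le_top : P ≤ ⊤)) ((χ.1 : IrrCharacter (⊤ : Subgroup X)) : _ → ℂ))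
        ((τ.1 : IrrCharacter M) : M → ℂ) ≠ 0} =
      Nat.card {χ : Re (Nr P) // classInner
        (rs (hMP.trans (Subgroup.le_normalizer : P ≤ Nr P)) ((χ.1 : IrrCharacter (Nr P)) : _ → ℂ))
        ((τ.1 : IrrCharacter M) : M → ℂ) ≠ 0} := by
  obtain ⟨⟨τ₀, hτ⟩, β, hβ2, hτβ⟩ := τ
  simp only at hτβ ⊢
  have hPtop : P ≤ ⊤ := le_top
  have hPN : P ≤ Nr P := Subgroup.le_normalizer
  have hn₁ : ∀ a ∈ (⊤ : Subgroup X), ∀ m ∈ M, a * m * a⁻¹ ∈ M := fun a _ m hm => hMn.conj_mem m hm a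
  have hn₂ : ∀ a ∈ Nr P, ∀ m ∈ M, a * m * a⁻¹ ∈ M := fun a _ m hm => hMn.conj_mem m hm a
  have hτ2 : ∀ m : M, τ₀ m * τ₀ m = 1 := by
    intro m
    rw [hτβ, ← Units.val_mul, hβ2, Units.val_one]
  have hPT₁ : P ≤ stab M ⊤ hn₁ τ₀ := fun p hp =>
    ⟨hPtop hp, fun q q' hq => invariant_of_ext (hMP := hMP) hτβ hp q q' hq⟩
  have hMT₁ : M ≤ stab M ⊤ hn₁ τ₀ := le_stab' (hMP.trans hPtop) hn₁ hτ
  obtain ⟨lam₁, hlam₁M, hlam₁2⟩ := exists_lam hMP hPtop hn₁ hP hτ β hτβ hτ2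
  obtain ⟨lam₂, hlam₂M, hlam₂2⟩ := exists_lam hMP hPN hn₂ hP hτ β hτβ hτ2
  haveI hnorm : (M.subgroupOf (stab M ⊤ hn₁ τ₀)).Normal := hMn.subgroupOf _
  let f₁ : stab M ⊤ hn₁ τ₀ →* (stab M ⊤ hn₁ τ₀ ⧸ M.subgroupOf (stab M ⊤ hn₁ τ₀)) :=
    QuotientGroup.mk' _
  have hf₁ : Function.Surjective f₁ := QuotientGroup.mk'_surjective _
  have hker₁ : ∀ t : stab M ⊤ hn₁ τ₀, f₁ t = 1 ↔ (t : X) ∈ M := by
    intro t
    have : f₁ t = 1 ↔ t ∈ M.subgroupOf (stab M ⊤ hn₁ τ₀) := QuotientGroup.eq_one_iff t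
    rw [this, Subgroup.mem_subgroupOf]
  let Pb : Subgroup (stab M ⊤ hn₁ τ₀ ⧸ M.subgroupOf (stab M ⊤ hn₁ τ₀)) :=
    (P.subgroupOf (stab M ⊤ hn₁ τ₀)).map f₁
  have hPb : IsSyl2 Pb := (hP.subgroupOf hPT₁).map f₁ hf₁
  have hinc : stab M (Nr P) hn₂ τ₀ ≤ stab M ⊤ hn₁ τ₀ := fun t ht => ⟨Subgroup.mem_top t, ht.2⟩
  let f₂ : stab M (Nr P) hn₂ τ₀ →* Nr Pb :=
    (f₁.comp (Subgroup.inclusion hinc)).codRestrict (Nr Pb) fun t =>
      map_mem_Nr f₁ (mem_Nr_subgroupOf (n := Subgroup.inclusion hinc t) t.2.1)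
  have hf₂ : Function.Surjective f₂ := by
    rintro ⟨y, hy⟩
    obtain ⟨x, rfl⟩ := hf₁ y
    obtain ⟨n, hn, hnx⟩ := exists_lift_normalizer (hP.subgroupOf hPT₁) f₁ hy
    have hn' : (n : X) ∈ Nr P := coe_mem_Nr_of_mem hn hPT₁
    refine ⟨⟨n, hn', n.2.2⟩, Subtype.ext ?_⟩
    exact hnx
  have hker₂ : ∀ t : stab M (Nr P) hn₂ τ₀, f₂ t = 1 ↔ (t : X) ∈ M := by
    intro t
    have h1 : f₂ t = 1 ↔ f₁ (Subgroup.inclusion hinc t) = 1 :=
      ⟨fun h => congrArg Subtype.val h, fun h => Subtype.ext h⟩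
    rw [h1, hker₁]
    rfl
  have hc₁ := card_over (hMP.trans hPtop) hn₁ hτ lam₁ (hlam₁2 hβ2) hlam₁M f₁ hf₁ hker₁
    (not_two_dvd_index_of_le hP hPT₁ hPtop)
  have hPT₂ : P ≤ stab M (Nr P) hn₂ τ₀ := fun p hp =>
    ⟨hPN hp, fun q q' hq => invariant_of_ext (hMP := hMP) hτβ hp q q' hq⟩
  have hc₂ := card_over (hMP.trans hPN) hn₂ hτ lam₂ (hlam₂2 hβ2) hlam₂M f₂ hf₂ hker₂
    (not_two_dvd_index_of_le hP hPT₂ hPN)
  rw [hc₁, hc₂]
  exact IH _ Pb (card_quot_lt hMT₁ hM) hPb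

/-- The step for a normal subgroup of exponent `2`. -/
theorem step_two [Group.IsSolvable X]
    (IH : ∀ (Y : Type u) [Group Y] [Finite Y] [Group.IsSolvable Y] (R : Subgroup Y),
      Nat.card Y < Nat.card X → IsSyl2 R → Nat.card (Re Y) = Nat.card (Re (Nr R)))
    {P M : Subgroup X} (hP : IsSyl2 P) (hMn : M.Normal) (hM : M ≠ ⊥)
    (hm2 : ∀ m ∈ M, m * m = 1) : Nat.card (Re X) = Nat.card (Re (Nr P)) := by
  have hM2 : IsPGroup 2 M := by
    intro m
    refine ⟨1, Subtype.ext ?_⟩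
    simpa [pow_two] using hm2 m m.2
  have hMP : M ≤ P := le_of_normal hP hMn hM2
  have hnN : ∀ n ∈ Nr P, ∀ m ∈ M, n * m * n⁻¹ ∈ M := fun a _ m hm => hMn.conj_mem m hm a
  have : Finite (IrrCharacter M) := finite_irrCharacter
  letI : Fintype (Quotient (relSetoid hMP hnN)) := Fintype.ofFinite _
  have h1 := card_re_eq_sum hMP (le_top : P ≤ ⊤) (le_top : Nr P ≤ ⊤)
    (fun a _ m hm => hMn.conj_mem m hm a) hP hnN
  have h2 := card_re_eq_sum hMP (Subgroup.le_normalizer : P ≤ Nr P) le_rfl hnN hP hnN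
  have h3 : Nat.card (Re X) = Nat.card (Re (⊤ : Subgroup X)) :=
    card_re_of_mulEquiv Subgroup.topEquiv.symm
  rw [h3, h1, h2]
  exact Finset.sum_congr rfl fun c _ => step_fiber IH hP hMP hMn hM hm2 c.out

end Two

/-- **The count of real characters of odd degree for a Sylow `2`-normalizer.** -/
theorem main : ∀ (n : ℕ) (X : Type u) [Group X] [Finite X] [Group.IsSolvable X] (P : Subgroup X),
    Nat.card X = n → IsSyl2 P → Nat.card (Re X) = Nat.card (Re (Nr P)) := by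
  intro n
  induction n using Nat.strong_induction_on with
  | _ n ih =>
  intro X _ _ _ P hn hP
  have IH : ∀ (Y : Type u) [Group Y] [Finite Y] [Group.IsSolvable Y] (R : Subgroup Y),
      Nat.card Y < Nat.card X → IsSyl2 R → Nat.card (Re Y) = Nat.card (Re (Nr R)) := by
    intro Y _ _ _ R hY hR
    exact ih _ (hn ▸ hY) Y R rfl hR
  rcases subsingleton_or_nontrivial X with hX | hX
  · have : Nr P = ⊤ := by
      rw [eq_top_iff]
      intro x _
      rw [Subsingleton.elim x 1]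
      exact (Nr P).one_mem
    rw [this]
    exact card_re_of_mulEquiv Subgroup.topEquiv.symm
  · letI := Fintype.ofFinite X
    rcases exists_normal_dichotomy (X := X) with ⟨O, hOn, hO, -, hOinv⟩ | ⟨M, hMn, hM, hm2⟩
    · haveI := hOn
      refine step_odd hP hOinv (IH _ _ ?_ (hP.map _ (QuotientGroup.mk'_surjective O)))
      have h1 := Subgroup.card_eq_card_quotient_mul_card_subgroup O
      have h4 : 1 < Nat.card O := (Subgroup.one_lt_card_iff_ne_bot O).mpr hO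
      have h5 : 0 < Nat.card (X ⧸ O) := Nat.card_pos
      nlinarith
    · exact step_two IH hP hMn hM hm2

end Cfsg.Agent.Lib.ReOdd.Count
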