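import Cfsg.Agent.Lib.ReOdd.Count
import Cfsg.Agent.Lib.PGroups.Basic

/-!
# When are all the characters of odd degree real: preliminaries
-/

set_option autoImplicit false
set_option linter.unusedSectionVars false
set_option linter.style.haveILetI false

namespace Cfsg.Agent.Lib.ReOdd.IffBase

open Module Finset
open Cfsg Cfsg.Agent.Lib.Char.Basic Cfsg.Agent.Lib.Char.Ortho Cfsg.Agent.Lib.Char.Complete
open Cfsg.Agent.Lib.Char.Degree Cfsg.Agent.Lib.Blk89.Basic
open Cfsg.Agent.Lib.Char.Conj Cfsg.Agent.Lib.Char.Clifford Cfsg.Agent.Lib.Char.FrobSchur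
open Cfsg.Agent.Lib.Char.Induced Cfsg.Agent.Lib.DGN.Basic Cfsg.Agent.Lib.ReOdd.Basic
open Cfsg.Agent.Lib.ReOdd.Over Cfsg.Agent.Lib.ReOdd.Orb Cfsg.Agent.Lib.ReOdd.Count
open Cfsg.Agent.Lib.Char.CliffordCorr
open scoped Classical ComplexConjugate

universe u

/-- All irreducible characters of odd degree are real. -/
def AllReal (X : Type u) [Group X] : Prop :=
  ∀ χ : IrrCharacter X, Odd (charDegree (χ : X → ℂ)) → ∀ g, ((χ : X → ℂ) g).im = 0

/-- All linear characters square to one. -/
def LL (P : Type u) [Group P] : Prop := ∀ β : P →* ℂˣ, ∀ x, β x * β x = 1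

section Transfer

variable {X Q : Type u} [Group X] [Group Q]

theorem allReal_of_surj (f : X →* Q) (hf : Function.Surjective f) (h : AllReal X) : AllReal Q := by
  intro ζ hζ q
  obtain ⟨x, rfl⟩ := hf q
  exact h ⟨(ζ : Q → ℂ) ∘ f, Cfsg.Agent.Lib.Char.Conj.isIrrCharacter_comp f hf ζ.2⟩
    (by
      show Odd (charDegree ((ζ : Q → ℂ) ∘ f))
      rw [charDegree_comp]
      exact hζ) x

theorem LL_of_surj (f : X →* Q) (hf : Function.Surjective f) (h : LL X) : LL Q := by
  intro β q
  obtain ⟨x, rfl⟩ := hf q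
  exact h (β.comp f) x

theorem LL_of_mulEquiv (e : X ≃* Q) (h : LL X) : LL Q := LL_of_surj e.toMonoidHom e.surjective h

/-- The condition on a `2`-group in terms of the Frattini subgroup. -/
theorem LL_iff [Finite X] (hP : IsPGroup 2 X) : LL X ↔ commutator X = frattini X := by
  have : Fact (Nat.Prime 2) := ⟨Nat.prime_two⟩
  constructor
  · intro h
    apply le_antisymm (Cfsg.Agent.Lib.PGroups.Basic.commutator_le_frattini hP)
    apply Cfsg.Agent.Lib.PGroups.Basic.frattini_le_of_normal (p := 2) _ le_rfl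
    intro x
    by_contra hx
    obtain ⟨β, hβ⟩ := Cfsg.Agent.Lib.Blk89.Linear.exists_hom_ne_one hx
    apply hβ
    rw [pow_two, map_mul]
    exact h β x
  · intro h β x
    have h1 : x ^ 2 ∈ commutator X := by
      rw [h]
      exact Cfsg.Agent.Lib.PGroups.Basic.pow_mem_frattini hP x
    have h2 : commutator X ≤ β.ker := by
      rw [commutator_def, Subgroup.commutator_le]
      intro a _ b _
      rw [MonoidHom.mem_ker, commutatorElement_def]
      simp only [map_mul, map_inv]
      rw [mul_comm (β a), mul_assoc, mul_assoc, mul_inv_cancel_left, mul_inv_cancel]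
    have h3 := h2 h1
    rw [MonoidHom.mem_ker, pow_two, map_mul] at h3
    exact h3

end Transfer

section Coprime

/-- A linear character invariant under a coprime automorphism group without fixed points is
trivial. -/
theorem hom_trivial_of_no_fixed {A P : Type*} [Group A] [Group P] [Fintype P] [Finite A]
    (hc : ∀ a b : A, a * b = b * a) (act : P → A →* A)
    (hmul : ∀ p q a, act (p * q) a = act p (act q a)) (hfix : ∀ c, (∀ p, act p c = c) → c = 1)
    (θ : A →* ℂˣ) (hinv : ∀ p a, θ (act p a) = θ a)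
    (hco : Nat.Coprime (Nat.card P) (Nat.card A)) (a : A) : θ a = 1 := by
  classical
  letI : CommGroup A := { ‹Group A› with mul_comm := hc }
  let ν : A := ∏ p : P, act p a
  have hν : ν = 1 := by
    apply hfix
    intro q
    show act q (∏ p : P, act p a) = ∏ p : P, act p a
    rw [map_prod]
    refine Fintype.prod_equiv (Equiv.mulLeft q) _ _ fun p => ?_
    rw [Equiv.coe_mulLeft, hmul]
  have h1 : θ a ^ Nat.card P = 1 := by
    have h2 : θ ν = 1 := by rw [hν, map_one]
    have h3 : θ ν = ∏ p : P, θ (act p a) := map_prod θ _ _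
    rw [h3] at h2
    simp only [hinv] at h2
    rwa [Finset.prod_const, Finset.card_univ, ← Nat.card_eq_fintype_card] at h2
  have h4 : θ a ^ Nat.card A = 1 := by
    rw [← map_pow, pow_card_eq_one', map_one]
  have h5 := pow_gcd_eq_one.mpr ⟨h1, h4⟩
  rwa [hco.gcd_eq_one, pow_one] at h5

end Coprime

section Char

variable {X : Type u} [Group X] [Fintype X]

/-- A constituent invariant under `P`. -/
theorem exists_invariant_constituent {O P : Subgroup X} (hO : O.Normal) (hP : IsSyl2 P)
    {χ : X → ℂ} (hχ : IsIrrCharacter X χ) (hodd : Odd (charDegree χ)) :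
    ∃ θ : O → ℂ, IsIrrCharacter O θ ∧ classInner (fun o : O => χ o) θ ≠ 0 ∧
      ∀ p ∈ P, ∀ o o' : O, (o' : X) = p * o * p⁻¹ → θ o' = θ o := by
  have : Fact (Nat.Prime 2) := ⟨Nat.prime_two⟩
  have hres : IsCharacter O (fun n : O => χ n) :=
    isCharacter_restrict O (isCharacter_of_isIrrCharacter hχ)
  obtain ⟨i, hi, -⟩ := exists_constituent_odd hres (by rw [charDegree_restrict]; exact hodd)
  have h1 := Cfsg.Agent.Lib.Blk89.ItoMichler.deg_mul_index_dvd hO hχ i.2 hi
  have h2 : ¬ 2 ∣ (inertia hO (i : O → ℂ)).index := by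
    intro h3
    have h4 : 2 ∣ charDegree χ := (h3.trans (Dvd.intro _ rfl)).trans h1
    exact (Nat.not_even_iff_odd.mpr hodd) (even_iff_two_dvd.mpr h4)
  obtain ⟨g, hg⟩ := Cfsg.Agent.Lib.Blk89.ItoMichler.exists_conj_le_of_not_dvd_index hP.1 _ h2
  refine ⟨conjOn hO g⁻¹ (i : O → ℂ), isIrrCharacter_conjOn hO _ i.2, ?_, ?_⟩
  · rw [classInner_restrict_conjOn hO (isClassFunction_of_isIrrCharacter hχ)]
    exact hi
  · intro p hp o o' ho
    have h3 := hg p hp
    rw [mem_inertia] at h3
    have h4 := congrFun h3 ⟨g⁻¹ * o * g⁻¹⁻¹, hO.conj_mem o o.2 g⁻¹⟩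
    rw [conjOn_apply] at h4
    rw [conjOn_apply, conjOn_apply, ← h4]
    refine congrArg _ (Subtype.ext ?_)
    simp only [ho, inv_inv]
    group

/-- If the principal character is under `χ` then `O` is in the kernel of `χ`. -/
theorem kernel_of_one_constituent {O : Subgroup X} (hO : O.Normal) {χ : X → ℂ}
    (hχ : IsIrrCharacter X χ) (hcon : classInner (fun n : O => χ n) (fun _ => 1) ≠ 0) {o : X}
    (ho : o ∈ O) : χ o = χ 1 := by
  have hcl := clifford_restrict hO hχ (isIrr_one (G := O)) hcon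
  have horb : orbitFinset hO (fun _ : O => (1 : ℂ)) = {fun _ => 1} := by
    ext φ
    rw [mem_orbitFinset, Finset.mem_singleton]
    constructor
    · rintro ⟨g, rfl⟩
      rfl
    · rintro rfl
      exact ⟨1, rfl⟩
  rw [horb, Finset.sum_singleton] at hcl
  have h1 := congrFun hcl ⟨o, ho⟩
  have h2 := congrFun hcl 1
  simp only [Pi.smul_apply, OneMemClass.coe_one] at h1 h2
  rw [h1, h2]

/-- If `P` has no fixed points on the abelian normal subgroup `O` of odd order, then `O` is in the
kernel of every irreducible character of odd degree. -/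
theorem kernel_of_no_fixed {O P : Subgroup X} (hO : O.Normal) (hP : IsSyl2 P)
    (habel : ∀ a ∈ O, ∀ b ∈ O, a * b = b * a) (hOodd : Odd (Nat.card O))
    (hfix : ∀ c ∈ O, (∀ p ∈ P, p * c * p⁻¹ = c) → c = 1)
    {χ : X → ℂ} (hχ : IsIrrCharacter X χ) (hodd : Odd (charDegree χ)) {o : X} (ho : o ∈ O) :
    χ o = χ 1 := by
  obtain ⟨θ, hθ, hcon, hinv⟩ := exists_invariant_constituent hO hP hχ hodd
  have hcomm : ∀ a b : O, a * b = b * a := fun a b => Subtype.ext (habel a a.2 b b.2)
  have h1 : θ 1 = 1 := Cfsg.Agent.Lib.Char.Linear.isIrr_deg_one_of_comm hcomm hθ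
  obtain ⟨γ, hγ⟩ := Cfsg.Agent.Lib.Char.Linear.exists_hom_of_deg_one
    (isCharacter_of_isIrrCharacter hθ) h1
  let act : P → O →* O := fun p =>
    { toFun := fun a => ⟨p * a * (p : X)⁻¹, hO.conj_mem a a.2 p⟩
      map_one' := by
        apply Subtype.ext
        simp
      map_mul' := fun a b => by
        apply Subtype.ext
        simp only [Subgroup.coe_mul]
        group }
  have hact : ∀ p a, ((act p a : O) : X) = p * a * (p : X)⁻¹ := fun _ _ => rfl
  have hcop : Nat.Coprime (Nat.card P) (Nat.card O) := by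
    obtain ⟨k, hk⟩ := IsPGroup.iff_card.mp hP.1
    rw [hk]
    exact (Nat.Coprime.pow_left k (Nat.coprime_two_left.mpr hOodd))
  have htriv := hom_trivial_of_no_fixed hcomm act
    (fun p q a => Subtype.ext (by
      simp only [hact, Subgroup.coe_mul, mul_inv_rev]
      group))
    (fun c hc => Subtype.ext (hfix c c.2 (fun p hp => congrArg Subtype.val (hc ⟨p, hp⟩))))
    γ
    (fun p a => by
      have := hinv p p.2 a (act p a) rfl
      rw [hγ] at this
      exact Units.ext this)
    hcop
  refine kernel_of_one_constituent hO hχ ?_ ho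
  have h2 : (fun _ : O => (1 : ℂ)) = θ := by
    funext a
    rw [hγ]
    show (1 : ℂ) = ((γ a : ℂˣ) : ℂ)
    rw [htriv a, Units.val_one]
  rw [h2]
  exact hcon

end Char

end Cfsg.Agent.Lib.ReOdd.IffBase
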