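import Cfsg.Agent.Lib.ReOdd.IffBase

/-!
# When are all the characters of odd degree real: the step for an abelian normal subgroup of odd
order
-/

set_option autoImplicit false
set_option linter.unusedSectionVars false
set_option linter.style.haveILetI false

namespace Cfsg.Agent.Lib.ReOdd.IffOdd

open Module Finset
open Cfsg Cfsg.Agent.Lib.Char.Basic Cfsg.Agent.Lib.Char.Ortho Cfsg.Agent.Lib.Char.Complete
open Cfsg.Agent.Lib.Char.Degree Cfsg.Agent.Lib.Blk89.Basic
open Cfsg.Agent.Lib.Char.Conj Cfsg.Agent.Lib.Char.Clifford Cfsg.Agent.Lib.Char.FrobSchur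
open Cfsg.Agent.Lib.Char.Induced Cfsg.Agent.Lib.DGN.Basic Cfsg.Agent.Lib.ReOdd.Basic
open Cfsg.Agent.Lib.ReOdd.Over Cfsg.Agent.Lib.ReOdd.Orb Cfsg.Agent.Lib.ReOdd.Count
open Cfsg.Agent.Lib.ReOdd.IffBase
open Cfsg.Agent.Lib.Char.IndRep
open scoped Classical ComplexConjugate

universe u

variable {X : Type u} [Group X] [Fintype X]

/-- A `P`-invariant linear character of an abelian normal subgroup of odd order lies under an
irreducible character of odd degree. -/
theorem exists_odd_over {O P : Subgroup X} (hO : O.Normal) (hP : IsSyl2 P)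
    (habel : ∀ a ∈ O, ∀ b ∈ O, a * b = b * a) (hOodd : Odd (Nat.card O)) (hO1 : 1 < Nat.card O)
    (θ : O →* ℂˣ) (hinv : ∀ p ∈ P, ∀ o o' : O, (o' : X) = p * o * p⁻¹ → θ o' = θ o) :
    ∃ χ : IrrCharacter X, Odd (charDegree (χ : X → ℂ)) ∧
      classInner (fun o : O => (χ : X → ℂ) o) (fun o => ((θ o : ℂˣ) : ℂ)) ≠ 0 := by
  haveI := hO
  have hOU : O ≤ O ⊔ P := le_sup_left
  have hPU : P ≤ O ⊔ P := le_sup_right
  let K : Subgroup (O ⊔ P : Subgroup X) := O.subgroupOf (O ⊔ P)
  haveI hKn : K.Normal := hO.subgroupOf _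
  let ϕ : K →* ℂˣ := θ.comp (Subgroup.subgroupOfEquivOfLe hOU).toMonoidHom
  -- invariance under `O ⊔ P`
  have hU : ∀ g ∈ O ⊔ P, ∀ o o' : O, (o' : X) = g * o * g⁻¹ → θ o' = θ o := by
    have hn : ∀ a ∈ (⊤ : Subgroup X), ∀ m ∈ O, a * m * a⁻¹ ∈ O :=
      fun a _ m hm => hO.conj_mem m hm a
    have hle : O ⊔ P ≤ stab O ⊤ hn (fun o => ((θ o : ℂˣ) : ℂ)) := by
      refine sup_le ?_ ?_
      · intro a ha
        refine ⟨Subgroup.mem_top a, fun q q' hq => ?_⟩
        have : q' = q := by
          apply Subtype.ext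
          rw [hq, habel a ha q q.2, mul_inv_cancel_right]
        rw [this]
      · intro p hp
        refine ⟨Subgroup.mem_top p, fun q q' hq => ?_⟩
        show ((θ q' : ℂˣ) : ℂ) = ((θ q : ℂˣ) : ℂ)
        rw [hinv p hp q q' hq]
    intro g hg o o' ho
    exact Units.ext ((hle hg).2 o o' ho)
  -- the coprimality of the index
  have hidx : Nat.Coprime K.index (Nat.card O) := by
    have h1 : K.index = O.relIndex P := Subgroup.relIndex_sup_left P O
    have h2 : O.relIndex P ∣ Nat.card P := Subgroup.index_dvd_card _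
    obtain ⟨k, hk⟩ := IsPGroup.iff_card.mp hP.1
    rw [h1]
    rw [hk] at h2
    exact Nat.Coprime.coprime_dvd_left h2
      (Nat.Coprime.pow_left k (Nat.coprime_two_left.mpr hOodd))
  obtain ⟨m, -, hm⟩ := Nat.exists_mul_mod_eq_one_of_coprime hidx hO1
  let lam : (O ⊔ P : Subgroup X) →* ℂˣ := (powMonoidHom m).comp ϕ.transfer
  have hlamO : ∀ o : O, ((lam ⟨o, hOU o.2⟩ : ℂˣ) : ℂ) = θ o := by
    intro o
    have h1 := Cfsg.Agent.Lib.CharDeep.LinearChar.transfer_eq_pow_of_normal ϕ K le_rfl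
      (x := ⟨o, hOU o.2⟩) (by rw [Subgroup.mem_subgroupOf]; exact o.2) (θ o) (by
        intro g h
        have hgo : ((g : X))⁻¹ * o * g ∈ O := by
          have := hO.conj_mem o o.2 (g : X)⁻¹
          simpa using this
        have h2 := hU (g : X)⁻¹ ((O ⊔ P).inv_mem g.2) o ⟨_, hgo⟩ (by simp)
        rw [← h2]
        rfl)
    have h2 : lam ⟨o, hOU o.2⟩ = (ϕ.transfer ⟨o, hOU o.2⟩) ^ m := rfl
    rw [h2, h1, ← pow_mul]
    congr 1
    rw [← Nat.div_add_mod (K.index * m) (Nat.card O), hm, pow_add, pow_mul, pow_one]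
    have h3 : θ o ^ Nat.card O = 1 := by
      rw [← map_pow, pow_card_eq_one', map_one]
    rw [h3, one_pow, one_mul]
  -- the induced character
  have hlamc : IsCharacter (O ⊔ P : Subgroup X) (fun u => ((lam u : ℂˣ) : ℂ)) :=
    isCharacter_of_isIrrCharacter (Cfsg.Agent.Lib.Char.Linear.isIrrCharacter_of_hom lam)
  have hind := isCharacter_indFun (O ⊔ P) hlamc
  have hdeg : Odd (charDegree (indFun (O ⊔ P) (fun u => ((lam u : ℂˣ) : ℂ)))) := by
    have h1 := charDegree_natCast hind
    rw [indFun_one] at h1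
    have h2 : charDegree (indFun (O ⊔ P) (fun u => ((lam u : ℂˣ) : ℂ))) = (O ⊔ P).index := by
      have : (((O ⊔ P).index : ℕ) : ℂ) =
          ((charDegree (indFun (O ⊔ P) (fun u => ((lam u : ℂˣ) : ℂ))) : ℕ) : ℂ) := by
        rw [h1]
        simp
      exact_mod_cast this.symm
    rw [h2, ← Nat.not_even_iff_odd, even_iff_two_dvd]
    exact fun h => hP.2 (h.trans (Subgroup.index_dvd_of_le hPU))
  obtain ⟨i, hi, hodd⟩ := exists_constituent_odd hind hdeg
  refine ⟨i, hodd, ?_⟩
  rw [classInner_indFun_left _ _ _ (isClassFunction_of_isIrrCharacter i.2)] at hi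
  have hi' := classInner_ne_zero_comm hi
  have h1 := classInner_ne_zero_mono (Subgroup.inclusion hOU)
    (isCharacter_restrict (O ⊔ P) (isCharacter_of_isIrrCharacter i.2))
    (Cfsg.Agent.Lib.Char.Linear.isIrrCharacter_of_hom lam) hi'
    (φ := fun o => ((θ o : ℂˣ) : ℂ))
    (isCharacter_of_isIrrCharacter (Cfsg.Agent.Lib.Char.Linear.isIrrCharacter_of_hom θ))
    (by
      have h2 : ((fun u => ((lam u : ℂˣ) : ℂ)) ∘ (Subgroup.inclusion hOU)) =
          (fun o => ((θ o : ℂˣ) : ℂ)) := by
        funext o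
        exact hlamO o
      rw [h2, classInner_self_of_isIrr (Cfsg.Agent.Lib.Char.Linear.isIrrCharacter_of_hom θ)]
      exact one_ne_zero)
  exact h1

/-- If all characters of odd degree are real then `P` has no fixed point on the abelian normal
subgroup `O` of odd order. -/
theorem no_fixed_of_allReal (hreal : AllReal X) {O P : Subgroup X} (hO : O.Normal) (hP : IsSyl2 P)
    (habel : ∀ a ∈ O, ∀ b ∈ O, a * b = b * a) (hOodd : Odd (Nat.card O))
    {c : X} (hc : c ∈ O) (hfix : ∀ p ∈ P, p * c * p⁻¹ = c) : c = 1 := by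
  by_contra hne
  have hcomm : ∀ a b : O, a * b = b * a := fun a b => Subtype.ext (habel a a.2 b b.2)
  have hnc : (⟨c, hc⟩ : O) ∉ commutator O := by
    have h1 : commutator O = ⊥ := by
      rw [commutator_def, Subgroup.commutator_eq_bot_iff_le_centralizer]
      intro a _
      rw [Subgroup.mem_centralizer_iff]
      intro b _
      exact hcomm b a
    rw [h1, Subgroup.mem_bot]
    intro h2
    exact hne (congrArg Subtype.val h2)
  obtain ⟨γ, hγ⟩ := Cfsg.Agent.Lib.Blk89.Linear.exists_hom_ne_one hnc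
  have hO1 : 1 < Nat.card O := by
    rw [Subgroup.one_lt_card_iff_ne_bot]
    intro h1
    rw [h1, Subgroup.mem_bot] at hc
    exact hne hc
  let θ : O →* ℂˣ :=
    { toFun := fun o => ∏ p : P, γ ⟨p * o * (p : X)⁻¹, hO.conj_mem o o.2 p⟩
      map_one' := by
        apply Finset.prod_eq_one
        intro p _
        have : (⟨p * ((1 : O) : X) * (p : X)⁻¹, hO.conj_mem _ (1 : O).2 p⟩ : O) = 1 := by
          apply Subtype.ext
          simp
        rw [this, map_one]
      map_mul' := fun a b => by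
        rw [← Finset.prod_mul_distrib]
        refine Finset.prod_congr rfl fun p _ => ?_
        rw [← map_mul]
        refine congrArg _ (Subtype.ext ?_)
        simp only [Subgroup.coe_mul]
        group }
  have hθ : ∀ o, θ o = ∏ p : P, γ ⟨p * o * (p : X)⁻¹, hO.conj_mem o o.2 p⟩ := fun _ => rfl
  have hinv : ∀ p ∈ P, ∀ o o' : O, (o' : X) = p * o * p⁻¹ → θ o' = θ o := by
    intro q hq o o' ho
    rw [hθ, hθ]
    refine Fintype.prod_equiv (Equiv.mulRight (⟨q, hq⟩ : P)) _ _ fun p => ?_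
    refine congrArg _ (Subtype.ext ?_)
    simp only [Equiv.coe_mulRight, Subgroup.coe_mul, mul_inv_rev, ho]
    group
  have hθc : θ ⟨c, hc⟩ ≠ 1 := by
    intro h1
    apply hγ
    have h2 : θ ⟨c, hc⟩ = γ ⟨c, hc⟩ ^ Nat.card P := by
      rw [hθ, Nat.card_eq_fintype_card, ← Finset.card_univ, ← Finset.prod_const]
      refine Finset.prod_congr rfl fun p _ => ?_
      refine congrArg _ (Subtype.ext ?_)
      exact hfix p p.2
    rw [h2] at h1
    have h3 : γ ⟨c, hc⟩ ^ Nat.card O = 1 := by
      rw [← map_pow, pow_card_eq_one', map_one]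
    have h5 := pow_gcd_eq_one.mpr ⟨h1, h3⟩
    have hcop : Nat.Coprime (Nat.card P) (Nat.card O) := by
      obtain ⟨k, hk⟩ := IsPGroup.iff_card.mp hP.1
      rw [hk]
      exact (Nat.Coprime.pow_left k (Nat.coprime_two_left.mpr hOodd))
    rwa [hcop.gcd_eq_one, pow_one] at h5
  obtain ⟨χ, hodd, hcon⟩ := exists_odd_over hO hP habel hOodd hO1 θ hinv
  have hr := hreal χ hodd
  have hker : (fun o : O => (χ : X → ℂ) o) = ((χ : X → ℂ) 1) • (fun _ => (1 : ℂ)) := by
    funext o
    simp only [Pi.smul_apply, smul_eq_mul, mul_one]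
    exact kernel_of_real_odd hO hOodd χ.2 hr hodd o.2
  apply hcon
  rw [hker, classInner_smul_left,
    classInner_eq_zero_of_isIrr_of_ne (isIrr_one (G := O))
      (Cfsg.Agent.Lib.Char.Linear.isIrrCharacter_of_hom θ), mul_zero]
  intro h
  apply hθc
  have := congrFun h ⟨c, hc⟩
  exact Units.ext this.symm

/-- The step for an abelian normal subgroup of odd order. -/
theorem step_iff_odd {P : Subgroup X} (hP : IsSyl2 P) {O : Subgroup X} [hOn : O.Normal]
    (habel : ∀ a ∈ O, ∀ b ∈ O, a * b = b * a) (hOinv : ∀ o ∈ O, o * o = 1 → o = 1)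
    (IH : AllReal (X ⧸ O) ↔ (Nr (P.map (QuotientGroup.mk' O)) = P.map (QuotientGroup.mk' O) ∧
      LL (P.map (QuotientGroup.mk' O)))) :
    AllReal X ↔ (Nr P = P ∧ LL P) := by
  let f := QuotientGroup.mk' O
  have hf : Function.Surjective f := QuotientGroup.mk'_surjective O
  have hOodd : Odd (Nat.card O) := odd_card_of_noInv hOinv
  have hker : ∀ x, f x = 1 ↔ x ∈ O := fun x => QuotientGroup.eq_one_iff x
  -- `P ∩ O = 1`
  have hPO : ∀ a ∈ P, a ∈ O → a = 1 := by
    intro a haP haO
    obtain ⟨k, hk⟩ := hP.1 ⟨a, haP⟩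
    have h1 : a ^ 2 ^ k = 1 := by
      have := congrArg Subtype.val hk
      simpa using this
    have h2 : orderOf a ∣ 2 ^ k := orderOf_dvd_of_pow_eq_one h1
    have h3 : orderOf a ∣ Nat.card O := Subgroup.orderOf_dvd_natCard O haO
    have h4 : Nat.Coprime (2 ^ k) (Nat.card O) :=
      Nat.Coprime.pow_left k (Nat.coprime_two_left.mpr hOodd)
    have h5 : orderOf a = 1 := Nat.eq_one_of_dvd_coprimes h4 h2 h3
    exact orderOf_eq_one_iff.mp h5
  -- `P` is isomorphic to its image
  have hinj : Function.Injective (f.subgroupMap P) := by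
    rw [injective_iff_map_eq_one]
    intro a ha
    have h1 : f a = 1 := congrArg Subtype.val ha
    exact Subtype.ext (hPO a a.2 ((hker a).mp h1))
  let e : P ≃* P.map f :=
    MulEquiv.ofBijective (f.subgroupMap P) ⟨hinj, f.subgroupMap_surjective P⟩
  constructor
  · intro hreal
    have h1 := IH.mp (allReal_of_surj f hf hreal)
    refine ⟨?_, LL_of_mulEquiv e.symm h1.2⟩
    apply le_antisymm _ Subgroup.le_normalizer
    intro n hn
    have h2 : f n ∈ P.map f := by
      have h3 : f n ∈ Nr (P.map f) := map_mem_Nr f hn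
      rw [h1.1] at h3
      exact h3
    obtain ⟨p, hp, hpn⟩ := h2
    have h3 : p⁻¹ * n ∈ O := by
      rw [← hker, map_mul, map_inv, hpn, inv_mul_cancel]
    have h4 : p⁻¹ * n ∈ Nr P := (Nr P).mul_mem (Subgroup.le_normalizer (P.inv_mem hp)) hn
    have h5 : p⁻¹ * n = 1 := by
      refine no_fixed_of_allReal hreal hOn hP habel hOodd h3 fun q hq => ?_
      set a := p⁻¹ * n with ha
      have h6 : a * q * a⁻¹ ∈ P := (Subgroup.mem_normalizer_iff.mp h4 q).mp hq
      have h7 : a * q * a⁻¹ * q⁻¹ ∈ P := P.mul_mem h6 (P.inv_mem hq)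
      have h8 : a * (q * a⁻¹ * q⁻¹) ∈ O := O.mul_mem h3 (hOn.conj_mem _ (O.inv_mem h3) q)
      have h9 : a * q * a⁻¹ * q⁻¹ = 1 := hPO _ h7 (by
        have : a * q * a⁻¹ * q⁻¹ = a * (q * a⁻¹ * q⁻¹) := by group
        rw [this]
        exact h8)
      have h10 : a * q = q * a := by
        have : a * q * a⁻¹ = q := by
          have := congrArg (· * q) h9
          simpa using this
        calc a * q = a * q * a⁻¹ * a := by group
          _ = q * a := by rw [this]
      rw [← h10, mul_inv_cancel_right]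
    have h6 : n = p := by
      have := eq_of_inv_mul_eq_one h5
      exact this.symm
    rw [h6]
    exact hp
  · rintro ⟨hN, hL⟩
    have h1 : AllReal (X ⧸ O) := by
      refine IH.mpr ⟨?_, LL_of_mulEquiv e hL⟩
      apply le_antisymm _ Subgroup.le_normalizer
      intro y hy
      obtain ⟨x, rfl⟩ := hf y
      obtain ⟨n, hn, hnx⟩ := exists_lift_normalizer hP f hy
      rw [hN] at hn
      rw [← hnx]
      exact Subgroup.mem_map_of_mem f hn
    intro χ hodd
    -- `O` is in the kernel of `χ`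
    have hfix : ∀ c ∈ O, (∀ p ∈ P, p * c * p⁻¹ = c) → c = 1 := by
      intro c hc hcP
      have h2 : c ∈ Nr P := by
        apply mem_normalizer_of_conj_le
        intro p hp
        have : c * p * c⁻¹ = p := by
          have h3 := hcP p hp
          have h4 : c * p = p * c := by
            calc c * p = (p * c * p⁻¹) * p := by rw [h3]
              _ = p * c := by group
          rw [h4, mul_inv_cancel_right]
        rw [this]
        exact hp
      rw [hN] at h2
      exact hPO c h2 hc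
    have hk := fun o (ho : o ∈ O) => kernel_of_no_fixed hOn hP habel hOodd hfix χ.2 hodd ho
    obtain ⟨φ, hφ, hχφ⟩ := Cfsg.Agent.Lib.Char.Linear.isIrrCharacter_descend f hf χ.2
      (fun k hk' => hk k ((hker k).mp hk'))
    have hφd : Odd (charDegree φ) := by
      rw [← charDegree_comp f, ← hχφ]
      exact hodd
    intro g
    rw [hχφ]
    exact h1 ⟨φ, hφ⟩ hφd (f g)

end Cfsg.Agent.Lib.ReOdd.IffOdd
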