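import Cfsg.Agent.Lib.ReOdd.IffOdd

/-!
# When are all the characters of odd degree real: the step for a normal subgroup of exponent `2`
-/

set_option autoImplicit false
set_option linter.unusedSectionVars false
set_option linter.style.haveILetI false

namespace Cfsg.Agent.Lib.ReOdd.IffTwo

open Module Finset
open Cfsg Cfsg.Agent.Lib.Char.Basic Cfsg.Agent.Lib.Char.Ortho Cfsg.Agent.Lib.Char.Complete
open Cfsg.Agent.Lib.Char.Degree Cfsg.Agent.Lib.Blk89.Basic
open Cfsg.Agent.Lib.Char.Conj Cfsg.Agent.Lib.Char.Clifford Cfsg.Agent.Lib.Char.FrobSchur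
open Cfsg.Agent.Lib.Char.Induced Cfsg.Agent.Lib.DGN.Basic Cfsg.Agent.Lib.ReOdd.Basic
open Cfsg.Agent.Lib.ReOdd.Over Cfsg.Agent.Lib.ReOdd.Orb Cfsg.Agent.Lib.ReOdd.Count
open Cfsg.Agent.Lib.ReOdd.IffBase
open scoped Classical ComplexConjugate

universe u

variable {X : Type u} [Group X] [Fintype X]

/-- The hypothesis of induction. -/
def IHyp (X : Type u) [Group X] : Prop :=
  ∀ (Y : Type u) [Group Y] [Finite Y] [Group.IsSolvable Y] (R : Subgroup Y),
    Nat.card Y < Nat.card X → IsSyl2 R → (AllReal Y ↔ (Nr R = R ∧ LL R))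

variable {P M : Subgroup X}

/-- The restriction to `M` of a linear character of `P`. -/
theorem irr_res (hMP : M ≤ P) (β : P →* ℂˣ) :
    IsIrrCharacter M (fun m : M => ((β ⟨m, hMP m.2⟩ : ℂˣ) : ℂ)) :=
  Cfsg.Agent.Lib.Char.Linear.isIrrCharacter_of_hom (β.comp (Subgroup.inclusion hMP))

/-- The data of the reduction to the stabilizer of `τ`. -/
theorem reduction_facts [Group.IsSolvable X] (IH : IHyp X) (hP : IsSyl2 P) (hMn : M.Normal)
    (hM : M ≠ ⊥) (hn : ∀ a ∈ (⊤ : Subgroup X), ∀ m ∈ M, a * m * a⁻¹ ∈ M)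
    {τ : M → ℂ} (hτ : IsIrrCharacter M τ) (hPT : P ≤ stab M ⊤ hn τ) :
    ∃ (Q : Type u) (_ : Group Q) (f : stab M ⊤ hn τ →* Q) (_ : Function.Surjective f)
      (R : Subgroup Q), (∀ t, f t = 1 ↔ (t : X) ∈ M) ∧ R = (P.subgroupOf (stab M ⊤ hn τ)).map f ∧
      (AllReal Q ↔ (Nr R = R ∧ LL R)) := by
  haveI hnorm : (M.subgroupOf (stab M ⊤ hn τ)).Normal := hMn.subgroupOf _
  have hMT : M ≤ stab M ⊤ hn τ := le_stab' le_top hn hτ
  let f : stab M ⊤ hn τ →* (stab M ⊤ hn τ ⧸ M.subgroupOf (stab M ⊤ hn τ)) := QuotientGroup.mk' _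
  have hf : Function.Surjective f := QuotientGroup.mk'_surjective _
  have hker : ∀ t : stab M ⊤ hn τ, f t = 1 ↔ (t : X) ∈ M := by
    intro t
    have : f t = 1 ↔ t ∈ M.subgroupOf (stab M ⊤ hn τ) := QuotientGroup.eq_one_iff t
    rw [this, Subgroup.mem_subgroupOf]
  refine ⟨_, _, f, hf, (P.subgroupOf (stab M ⊤ hn τ)).map f, hker, rfl, ?_⟩
  exact IH _ _ (card_quot_lt hMT hM) ((hP.subgroupOf hPT).map f hf)

/-- The direction: `N(P) = P` and `LL P` imply that all the odd characters are real. -/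
theorem allReal_of_two [Group.IsSolvable X] (IH : IHyp X) (hP : IsSyl2 P) (hMn : M.Normal)
    (hM : M ≠ ⊥) (hMP : M ≤ P) (hN : Nr P = P) (hL : LL P) : AllReal X := by
  have hn : ∀ a ∈ (⊤ : Subgroup X), ∀ m ∈ M, a * m * a⁻¹ ∈ M := fun a _ m hm => hMn.conj_mem m hm a
  intro χ hodd
  let e : (⊤ : Subgroup X) ≃* X := Subgroup.topEquiv
  let χ' : (⊤ : Subgroup X) → ℂ := (χ : X → ℂ) ∘ e
  have hχ' : IsIrrCharacter (⊤ : Subgroup X) χ' := isIrrCharacter_comp_mulEquiv e χ.2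
  have hdeg' : Odd (charDegree χ') := by
    have : charDegree χ' = charDegree (χ : X → ℂ) := charDegree_comp e.toMonoidHom _
    rw [this]
    exact hodd
  have hPtop : P ≤ ⊤ := le_top
  have hψ : IsCharacter P (rs hPtop χ') := isCharacter_rs hPtop (isCharacter_of_isIrrCharacter hχ')
  have hψdeg : Odd (charDegree (rs hPtop χ')) := by
    have : charDegree (rs hPtop χ') = charDegree χ' := charDegree_comp (Subgroup.inclusion hPtop) χ'
    rw [this]
    exact hdeg'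
  obtain ⟨β, hβ⟩ := exists_linear_constituent hP.1 hψ hψdeg
  have hβ2 := hL β
  let τ : M → ℂ := fun m => ((β ⟨m, hMP m.2⟩ : ℂˣ) : ℂ)
  have hτ : IsIrrCharacter M τ := irr_res hMP β
  have hτβ : ∀ m : M, τ m = ((β ⟨m, hMP m.2⟩ : ℂˣ) : ℂ) := fun _ => rfl
  have hτ2 : ∀ m : M, τ m * τ m = 1 := by
    intro m
    rw [hτβ, ← Units.val_mul, hβ2, Units.val_one]
  have hover : classInner (rs (hMP.trans hPtop) χ') τ ≠ 0 := by
    have h1 := classInner_ne_zero_mono (Subgroup.inclusion hMP) hψ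
      (Cfsg.Agent.Lib.Char.Linear.isIrrCharacter_of_hom β) hβ
      (φ := τ) (isCharacter_of_isIrrCharacter hτ)
      (by
        have : classInner ((fun x => ((β x : ℂˣ) : ℂ)) ∘ (Subgroup.inclusion hMP)) τ = 1 :=
          classInner_self_of_isIrr hτ
        rw [this]
        exact one_ne_zero)
    exact h1
  have hMtop : M ≤ ⊤ := le_top
  obtain ⟨ψ, hψi, hind, hcon⟩ := exists_ind hMtop hn hτ hχ' hover
  have hPT : P ≤ stab M ⊤ hn τ := fun p hp =>
    ⟨Subgroup.mem_top p, fun q q' hq => invariant_of_ext (hMP := hMP) hτβ hp q q' hq⟩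
  obtain ⟨lam, hlamM, hlam2⟩ := exists_lam hMP hPtop hn hP hτ β hτβ hτ2
  have hlam := hlam2 hβ2
  obtain ⟨Q, _, f, hf, R, hker, hR, hiff⟩ := reduction_facts IH hP hMn hM hn hτ hPT
  obtain ⟨φ, hφ, hφeq⟩ := exists_descend hMtop hn hτ lam hlamM hτ2 f hf
    (fun t ht => (hker t).mp ht) hψi hcon
  have hψdeg2 : Odd (charDegree ψ) := by
    have h1 := hdeg'
    rw [← hind, charDegree_ind stab_le (isCharacter_of_isIrrCharacter hψi)] at h1
    exact (Nat.odd_mul.mp h1).2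
  have hφdeg : Odd (charDegree φ) := by
    rw [← charDegree_comp f]
    have h1 : φ ∘ f = fun t => ((lam t : ℂˣ) : ℂ) * ψ t := by
      funext t
      exact (hφeq t).symm
    rw [h1, charDegree_mul_hom]
    exact hψdeg2
  have hQ : AllReal Q := by
    refine hiff.mpr ⟨?_, ?_⟩
    · apply le_antisymm _ Subgroup.le_normalizer
      intro y hy
      obtain ⟨t, rfl⟩ := hf y
      rw [hR] at hy ⊢
      obtain ⟨n, hn', hnt⟩ := exists_lift_normalizer (hP.subgroupOf hPT) f hy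
      have h1 : (n : X) ∈ Nr P := coe_mem_Nr_of_mem hn' hPT
      rw [hN] at h1
      rw [← hnt]
      exact Subgroup.mem_map_of_mem f (by rw [Subgroup.mem_subgroupOf]; exact h1)
    · rw [hR]
      exact LL_of_surj (f.subgroupMap _) (f.subgroupMap_surjective _)
        (LL_of_mulEquiv (Subgroup.subgroupOfEquivOfLe hPT).symm hL)
  have hφr := hQ ⟨φ, hφ⟩ hφdeg
  have hlamr := im_eq_zero_of_hom_mul_self hlam
  have hψr : ∀ t, (ψ t).im = 0 := by
    intro t
    have h1 : ψ t = ((lam t : ℂˣ) : ℂ) * φ (f t) := by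
      rw [← hφeq, ← mul_assoc, ← Units.val_mul, hlam, Units.val_one, one_mul]
    rw [h1, Complex.mul_im, hlamr t, hφr (f t)]
    simp
  intro g
  have h1 := im_ind stab_le hψr (e.symm g)
  rw [hind] at h1
  simpa [χ'] using h1

/-- The direction: if all the odd characters are real then `LL P`. -/
theorem LL_of_two [Group.IsSolvable X] (IH : IHyp X) (hP : IsSyl2 P) (hMn : M.Normal)
    (hM : M ≠ ⊥) (hMP : M ≤ P) (hm2 : ∀ m ∈ M, m * m = 1) (hreal : AllReal X) : LL P := by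
  have hn : ∀ a ∈ (⊤ : Subgroup X), ∀ m ∈ M, a * m * a⁻¹ ∈ M := fun a _ m hm => hMn.conj_mem m hm a
  intro β
  have hPtop : P ≤ ⊤ := le_top
  have hMtop : M ≤ ⊤ := le_top
  let e : (⊤ : Subgroup X) ≃* X := Subgroup.topEquiv
  have hreal' : AllReal (⊤ : Subgroup X) := allReal_of_surj e.symm.toMonoidHom e.symm.surjective hreal
  let τ : M → ℂ := fun m => ((β ⟨m, hMP m.2⟩ : ℂˣ) : ℂ)
  have hτ : IsIrrCharacter M τ := irr_res hMP β
  have hτβ : ∀ m : M, τ m = ((β ⟨m, hMP m.2⟩ : ℂˣ) : ℂ) := fun _ => rfl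
  have hτ2 : ∀ m : M, τ m * τ m = 1 := by
    intro m
    rw [hτβ, ← Units.val_mul, ← map_mul]
    have : (⟨m, hMP m.2⟩ : P) * ⟨m, hMP m.2⟩ = 1 := Subtype.ext (hm2 m m.2)
    rw [this, map_one, Units.val_one]
  have hτr : ∀ m, (τ m).im = 0 := by
    intro m
    have h1 : τ m = 1 ∨ τ m = -1 := mul_self_eq_one_iff.mp (hτ2 m)
    rcases h1 with h1 | h1 <;> simp [h1]
  have hPT : P ≤ stab M ⊤ hn τ := fun p hp =>
    ⟨Subgroup.mem_top p, fun q q' hq => invariant_of_ext (hMP := hMP) hτβ hp q q' hq⟩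
  obtain ⟨lam, hlamM, -⟩ := exists_lam hMP hPtop hn hP hτ β hτβ hτ2
  obtain ⟨Q, _, f, hf, R, hker, hR, hiff⟩ := reduction_facts IH hP hMn hM hn hτ hPT
  have hidx : ¬ 2 ∣ ((stab M ⊤ hn τ).subgroupOf ⊤).index := not_two_dvd_index_of_le hP hPT hPtop
  have hidx' : Odd ((stab M ⊤ hn τ).subgroupOf ⊤).index := by
    rwa [← Nat.not_even_iff_odd, even_iff_two_dvd]
  -- the key: twisted characters are real
  have key : ∀ φ : Q → ℂ, IsIrrCharacter Q φ → Odd (charDegree φ) →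
      ∀ t, ((((lam t : ℂˣ) : ℂ) * φ (f t))).im = 0 := by
    intro φ hφ hφd
    have hξ : IsIrrCharacter (stab M ⊤ hn τ) (fun t => ((lam t : ℂˣ) : ℂ) * φ (f t)) :=
      Cfsg.Agent.Lib.Blk89.Linear.isIrr_hom_mul
        (Cfsg.Agent.Lib.Char.Conj.isIrrCharacter_comp f hf hφ) lam
    have hcon := twist_over hMtop hn hτ lam hlamM f (fun t ht => (hker t).mpr ht) hφ
    have hirr := isIrr_ind hMtop hn hτ hξ hcon
    have hdeg : Odd (charDegree (ind stab_le (fun t => ((lam t : ℂˣ) : ℂ) * φ (f t)))) := by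
      rw [charDegree_ind stab_le (isCharacter_of_isIrrCharacter hξ)]
      refine hidx'.mul ?_
      have h1 : charDegree (fun t => ((lam t : ℂˣ) : ℂ) * φ (f t)) = charDegree (φ ∘ f) :=
        charDegree_mul_hom lam
      rw [h1, charDegree_comp]
      exact hφd
    exact real_of_ind_real hMtop hn hτ hτr hξ hcon (hreal' ⟨_, hirr⟩ hdeg)
  -- `lam` is real
  have hlamr : ∀ t, ((lam t : ℂˣ) : ℂ).im = 0 := by
    intro t
    have h1 := key (fun _ => 1) isIrr_one (by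
      have : charDegree (fun _ : Q => (1 : ℂ)) = 1 := charDegree_eq_of_eq_natCast (by simp)
      rw [this]
      exact odd_one) t
    simpa using h1
  have hlam2 : ∀ t, lam t * lam t = 1 := hom_mul_self_of_real hlamr
  have hQ : AllReal Q := by
    intro φ hφd q
    obtain ⟨t, rfl⟩ := hf q
    have h1 : (φ : Q → ℂ) (f t) =
        ((lam t : ℂˣ) : ℂ) * (((lam t : ℂˣ) : ℂ) * (φ : Q → ℂ) (f t)) := by
      rw [← mul_assoc, ← Units.val_mul, hlam2, Units.val_one, one_mul]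
    rw [h1, Complex.mul_im, hlamr t, key φ φ.2 hφd t]
    simp
  have hLR : LL R := (hiff.mp hQ).2
  -- the map `P → R`
  subst hR
  let g : P →* (P.subgroupOf (stab M ⊤ hn τ)).map f :=
    (f.subgroupMap (P.subgroupOf (stab M ⊤ hn τ))).comp
      (Subgroup.subgroupOfEquivOfLe hPT).symm.toMonoidHom
  have hg : Function.Surjective g :=
    (f.subgroupMap_surjective _).comp (Subgroup.subgroupOfEquivOfLe hPT).symm.surjective
  have hgc : ∀ x : P, ((g x : _) : Q) = f ⟨x, hPT x.2⟩ := fun x => rfl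
  let β' : P →* ℂˣ := β * (lam.comp (Subgroup.inclusion hPT))⁻¹
  have hβ' : ∀ x, β' x = β x * (lam ⟨x, hPT x.2⟩)⁻¹ := fun x => rfl
  have hkerle : g.ker ≤ β'.ker := by
    intro x hx
    have h1 : f ⟨x, hPT x.2⟩ = 1 := by
      rw [MonoidHom.mem_ker] at hx
      have := congrArg Subtype.val hx
      exact this
    have hxM : (x : X) ∈ M := (hker _).mp h1
    rw [MonoidHom.mem_ker, hβ']
    have h2 := hlamM ⟨x, hxM⟩
    have h3 : τ ⟨x, hxM⟩ = ((β x : ℂˣ) : ℂ) := rfl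
    have h4 : lam ⟨x, hPT x.2⟩ = β x := Units.ext (h2.trans h3)
    rw [h4, mul_inv_cancel]
  let βb := (g.liftOfSurjective hg) ⟨β', hkerle⟩
  have hβb : ∀ x, βb (g x) = β' x := fun x =>
    MonoidHom.liftOfRightInverse_comp_apply g _ _ ⟨β', hkerle⟩ x
  intro x
  have h1 := hLR βb (g x)
  rw [hβb, hβ'] at h1
  have h2 := hlam2 ⟨x, hPT x.2⟩
  calc β x * β x = (β x * (lam ⟨x, hPT x.2⟩)⁻¹) * (β x * (lam ⟨x, hPT x.2⟩)⁻¹) *
        (lam ⟨x, hPT x.2⟩ * lam ⟨x, hPT x.2⟩) := by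
        rw [mul_mul_mul_comm, inv_mul_cancel_right]
    _ = 1 := by rw [h1, h2, one_mul]

/-- The step for a normal subgroup of exponent `2`. -/
theorem step_iff_two [Group.IsSolvable X] (IH : IHyp X) (hP : IsSyl2 P) (hMn : M.Normal)
    (hM : M ≠ ⊥) (hm2 : ∀ m ∈ M, m * m = 1) : AllReal X ↔ (Nr P = P ∧ LL P) := by
  have hM2 : IsPGroup 2 M := by
    intro m
    refine ⟨1, Subtype.ext ?_⟩
    simpa [pow_two] using hm2 m m.2
  have hMP : M ≤ P := le_of_normal hP hMn hM2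
  constructor
  · intro hreal
    refine ⟨?_, LL_of_two IH hP hMn hM hMP hm2 hreal⟩
    haveI := hMn
    let f := QuotientGroup.mk' M
    have hf : Function.Surjective f := QuotientGroup.mk'_surjective M
    have hker : ∀ x, f x = 1 ↔ x ∈ M := fun x => QuotientGroup.eq_one_iff x
    have h1 := (IH (X ⧸ M) (P.map f) (by
      have h1 := Subgroup.card_eq_card_quotient_mul_card_subgroup M
      have h4 : 1 < Nat.card M := (Subgroup.one_lt_card_iff_ne_bot M).mpr hM
      have h5 : 0 < Nat.card (X ⧸ M) := Nat.card_pos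
      nlinarith) (hP.map f hf)).mp (allReal_of_surj f hf hreal)
    apply le_antisymm _ Subgroup.le_normalizer
    intro n hn
    have h2 : f n ∈ Nr (P.map f) := map_mem_Nr f hn
    rw [h1.1] at h2
    obtain ⟨p, hp, hpn⟩ := h2
    have h3 : p⁻¹ * n ∈ M := by
      rw [← hker, map_mul, map_inv, hpn, inv_mul_cancel]
    have h4 := P.mul_mem hp (hMP h3)
    simpa using h4
  · rintro ⟨hN, hL⟩
    exact allReal_of_two IH hP hMn hM hMP hN hL

end Cfsg.Agent.Lib.ReOdd.IffTwo
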