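import Cfsg.Agent.Lib.ReOdd.Over

/-!
# The orbit partition of real characters of odd degree

`M ≤ P ≤ A`, with `P` a Sylow `2`-subgroup of the ambient group, `A` containing the normalizer of
`P` and normalizing `M`.  The real characters of odd degree of `A` are partitioned according to the
`N(P)`-classes of the characters of `M` which extend to real linear characters of `P`.
-/

set_option autoImplicit false
set_option linter.unusedSectionVars false
set_option linter.style.haveILetI false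

namespace Cfsg.Agent.Lib.ReOdd.Orb

open Module Finset
open Cfsg Cfsg.Agent.Lib.Char.Basic Cfsg.Agent.Lib.Char.Ortho Cfsg.Agent.Lib.Char.Complete
open Cfsg.Agent.Lib.Char.Degree Cfsg.Agent.Lib.Blk89.Basic
open Cfsg.Agent.Lib.Char.Conj Cfsg.Agent.Lib.Char.Clifford Cfsg.Agent.Lib.Char.FrobSchur
open Cfsg.Agent.Lib.Char.Induced Cfsg.Agent.Lib.DGN.Basic Cfsg.Agent.Lib.ReOdd.Basic
open Cfsg.Agent.Lib.ReOdd.Over
open scoped Classical ComplexConjugate

universe u

/-- Counting along a partition. -/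
theorem card_eq_sum_fiber {α C : Type u} [Finite α] [Fintype C] (ov : C → α → Prop)
    (h : ∀ a, ∃! c, ov c a) : Nat.card α = ∑ c, Nat.card {a // ov c a} := by
  choose cls hcls huniq using h
  have h1 : ∀ c, Nat.card {a // ov c a} = Nat.card {a // cls a = c} := by
    intro c
    refine Nat.card_congr (Equiv.subtypeEquivRight fun a => ?_)
    constructor
    · intro hc
      exact (huniq a c hc).symm
    · rintro rfl
      exact hcls a
  simp only [h1]
  rw [← Nat.card_sigma]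
  exact (Nat.card_congr (Equiv.sigmaFiberEquiv cls)).symm

variable {Γ : Type u} [Group Γ] [Fintype Γ]

section Inv

variable {M P : Subgroup Γ}

/-- The characters of `M` extending to a real linear character of `P`. -/
abbrev RR (hMP : M ≤ P) : Type u :=
  {τ : IrrCharacter M // ∃ β : P →* ℂˣ, (∀ x, β x * β x = 1) ∧
    ∀ m : M, (τ : M → ℂ) m = ((β ⟨m, hMP m.2⟩ : ℂˣ) : ℂ)}

/-- A character of `M` extending to a linear character of `P` is invariant under `P`. -/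
theorem invariant_of_ext {hMP : M ≤ P} {τ : M → ℂ} {β : P →* ℂˣ}
    (hβ : ∀ m : M, τ m = ((β ⟨m, hMP m.2⟩ : ℂˣ) : ℂ)) {p : Γ} (hp : p ∈ P) (q q' : M)
    (h : (q' : Γ) = p * q * p⁻¹) : τ q' = τ q := by
  rw [hβ, hβ]
  have h1 : (⟨q', hMP q'.2⟩ : P) = ⟨p, hp⟩ * ⟨q, hMP q.2⟩ * ⟨p, hp⟩⁻¹ := Subtype.ext h
  rw [h1, map_mul, map_mul, map_inv, mul_comm (β ⟨p, hp⟩), mul_inv_cancel_right]

/-- Conjugacy of characters of `M` under the normalizer of `P`. -/
def rel (hMP : M ≤ P) (τ τ' : RR hMP) : Prop :=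
  ∃ n ∈ Nr P, ∀ m m' : M, (m' : Γ) = n * m * n⁻¹ →
    ((τ'.1 : IrrCharacter M) : M → ℂ) m' = ((τ.1 : IrrCharacter M) : M → ℂ) m

/-- `rel` as a setoid. -/
def relSetoid (hMP : M ≤ P) (hnN : ∀ n ∈ Nr P, ∀ m ∈ M, n * m * n⁻¹ ∈ M) : Setoid (RR hMP) where
  r := rel hMP
  iseqv := by
    refine ⟨fun τ => ⟨1, (Nr P).one_mem, fun m m' h => ?_⟩, ?_, ?_⟩
    · have : m' = m := by
        apply Subtype.ext
        rw [h]
        group
      rw [this]
    · rintro τ τ' ⟨n, hn, h⟩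
      refine ⟨n⁻¹, (Nr P).inv_mem hn, fun m m' hm => ?_⟩
      refine (h m' m ?_).symm
      rw [hm]
      group
    · rintro τ τ' τ'' ⟨n, hn, h⟩ ⟨n', hn', h'⟩
      refine ⟨n' * n, (Nr P).mul_mem hn' hn, fun m m' hm => ?_⟩
      rw [h' ⟨n * m * n⁻¹, hnN n hn m m.2⟩ m' ?_, h m ⟨n * m * n⁻¹, hnN n hn m m.2⟩ rfl]
      rw [hm]
      simp only [mul_inv_rev]
      group

end Inv

section Over

variable {M P A : Subgroup Γ} (hMP : M ≤ P) (hPA : P ≤ A) (hNA : Nr P ≤ A)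
  (hn : ∀ a ∈ A, ∀ m ∈ M, a * m * a⁻¹ ∈ M) (hP : IsSyl2 P)

include hP in
/-- **F1a**: a real character of odd degree of `A` lies over a character in `RR`. -/
theorem exists_RR_over (χ : Re A) :
    ∃ τ : RR hMP, classInner (rs (hMP.trans hPA) ((χ.1 : IrrCharacter A) : A → ℂ))
      ((τ.1 : IrrCharacter M) : M → ℂ) ≠ 0 := by
  have hψ : IsCharacter P (rs hPA ((χ.1 : IrrCharacter A) : A → ℂ)) :=
    isCharacter_rs hPA (isCharacter_of_isIrrCharacter χ.1.2)
  have hdeg : Odd (charDegree (rs hPA ((χ.1 : IrrCharacter A) : A → ℂ))) := by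
    have : charDegree (rs hPA ((χ.1 : IrrCharacter A) : A → ℂ)) =
        charDegree ((χ.1 : IrrCharacter A) : A → ℂ) :=
      charDegree_comp (Subgroup.inclusion hPA) _
    rw [this]
    exact χ.2.2
  obtain ⟨β, hβ2, hβ⟩ := exists_real_linear_constituent hP.1 hψ (fun g => χ.2.1 _) hdeg
  let γ : M →* ℂˣ := β.comp (Subgroup.inclusion hMP)
  refine ⟨⟨⟨fun m => ((γ m : ℂˣ) : ℂ), Cfsg.Agent.Lib.Char.Linear.isIrrCharacter_of_hom γ⟩,
    β, hβ2, fun m => rfl⟩, ?_⟩
  have h1 := classInner_ne_zero_mono (Subgroup.inclusion hMP) hψ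
    (Cfsg.Agent.Lib.Char.Linear.isIrrCharacter_of_hom β) hβ
    (φ := fun m => ((γ m : ℂˣ) : ℂ))
    (isCharacter_of_isIrrCharacter (Cfsg.Agent.Lib.Char.Linear.isIrrCharacter_of_hom γ))
    (by
      have : classInner ((fun x => ((β x : ℂˣ) : ℂ)) ∘ (Subgroup.inclusion hMP))
          (fun m => ((γ m : ℂˣ) : ℂ)) = 1 :=
        classInner_self_of_isIrr (Cfsg.Agent.Lib.Char.Linear.isIrrCharacter_of_hom γ)
      rw [this]
      exact one_ne_zero)
  exact h1

include hMP hPA hNA hn hP in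
/-- **F1b**: two characters in `RR` under `χ` are conjugate. -/
theorem rel_of_over {χ : A → ℂ} (hχ : IsIrrCharacter A χ) (τ τ' : RR hMP)
    (h : classInner (rs (hMP.trans hPA) χ) ((τ.1 : IrrCharacter M) : M → ℂ) ≠ 0)
    (h' : classInner (rs (hMP.trans hPA) χ) ((τ'.1 : IrrCharacter M) : M → ℂ) ≠ 0) :
    rel hMP τ τ' := by
  have hMA : M ≤ A := hMP.trans hPA
  have hN := normal_subgroupOf hn
  obtain ⟨β, -, hβ⟩ := τ.2
  obtain ⟨β', -, hβ'⟩ := τ'.2
  -- the Clifford conjugation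
  have h1 : ∃ g : A, conjOn hN g (th hMA ((τ.1 : IrrCharacter M) : M → ℂ)) =
      th hMA ((τ'.1 : IrrCharacter M) : M → ℂ) := by
    by_contra hcon
    push Not at hcon
    have := classInner_restrict_eq_zero_of_not_conj hN hχ (isIrr_th hMA τ.1.2) (isIrr_th hMA τ'.1.2)
      (by rw [classInner_rs_bridge]; exact h) hcon
    rw [classInner_rs_bridge] at this
    exact h' this
  obtain ⟨g, hg⟩ := h1
  have hg' : ∀ m m' : M, (m' : Γ) = g * m * (g : Γ)⁻¹ →
      ((τ'.1 : IrrCharacter M) : M → ℂ) m = ((τ.1 : IrrCharacter M) : M → ℂ) m' := by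
    intro m m' hm'
    have h2 := congrFun hg ((Subgroup.subgroupOfEquivOfLe hMA).symm m)
    rw [conjOn_apply] at h2
    have h3 : (Subgroup.subgroupOfEquivOfLe hMA) ((Subgroup.subgroupOfEquivOfLe hMA).symm m) = m :=
      MulEquiv.apply_symm_apply _ _
    simp only [th, Function.comp, h3] at h2
    rw [← h2]
    refine congrArg _ (Subtype.ext ?_)
    rw [hm']
    have h4 := congrArg Subtype.val h3
    have h5 : (((Subgroup.subgroupOfEquivOfLe hMA).symm m : M.subgroupOf A) : A) = ⟨m, hMA m.2⟩ :=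
      Subtype.ext h4
    show (((g * ((Subgroup.subgroupOfEquivOfLe hMA).symm m : M.subgroupOf A) * g⁻¹ : A)) : Γ) = _
    rw [h5]
    rfl
  -- the Frattini argument in the stabilizer of `τ'`
  have hPT : P ≤ stab M A hn ((τ'.1 : IrrCharacter M) : M → ℂ) := fun p hp =>
    ⟨hPA hp, fun q q' hq => invariant_of_ext (hMP := hMP) hβ' hp q q' hq⟩
  obtain ⟨y, hy, hyx⟩ := exists_mul_mem_normalizer hP hPT (g : Γ)⁻¹ (by
    intro p hp
    refine ⟨A.mul_mem (A.mul_mem (A.inv_mem g.2) (hPA hp)) (by simp), fun q q' hq => ?_⟩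
    have hgm : ∀ m : M, (g : Γ) * m * (g : Γ)⁻¹ ∈ M := fun m => hn g g.2 m m.2
    rw [hg' q ⟨_, hgm q⟩ rfl, hg' q' ⟨_, hgm q'⟩ rfl]
    refine invariant_of_ext (hMP := hMP) hβ hp _ _ ?_
    show (g : Γ) * q' * (g : Γ)⁻¹ = p * ((g : Γ) * q * (g : Γ)⁻¹) * p⁻¹
    rw [hq]
    simp only [inv_inv, mul_inv_rev]
    group)
  refine ⟨y * (g : Γ)⁻¹, hyx, fun m m' hm => ?_⟩
  have hgi : (g : Γ)⁻¹ * m * (g : Γ) ∈ M := by
    have := hn (g : Γ)⁻¹ (A.inv_mem g.2) m m.2
    simpa using this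
  have h2 := hy.2 ⟨_, hgi⟩ m' (by
    rw [hm]
    simp only [mul_inv_rev, inv_inv]
    group)
  rw [h2, hg' ⟨_, hgi⟩ m (by
    show (m : Γ) = g * ((g : Γ)⁻¹ * m * g) * (g : Γ)⁻¹
    group)]

include hMP hPA hNA hn in
/-- **F1c**: a conjugate of a character under `χ` is under `χ`. -/
theorem over_of_rel {χ : A → ℂ} (hχ : IsIrrCharacter A χ) {τ τ' : RR hMP} (hrel : rel hMP τ τ')
    (h : classInner (rs (hMP.trans hPA) χ) ((τ.1 : IrrCharacter M) : M → ℂ) ≠ 0) :
    classInner (rs (hMP.trans hPA) χ) ((τ'.1 : IrrCharacter M) : M → ℂ) ≠ 0 := by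
  have hMA : M ≤ A := hMP.trans hPA
  have hN := normal_subgroupOf hn
  obtain ⟨n, hnP, hnrel⟩ := hrel
  have hnA : n ∈ A := hNA hnP
  have h1 : conjOn hN (⟨n, hnA⟩ : A)⁻¹ (th hMA ((τ.1 : IrrCharacter M) : M → ℂ)) =
      th hMA ((τ'.1 : IrrCharacter M) : M → ℂ) := by
    funext m
    rw [conjOn_apply]
    simp only [th, Function.comp]
    symm
    refine hnrel _ _ ?_
    show ((m : A) : Γ) = n * (n⁻¹ * ((m : A) : Γ) * n⁻¹⁻¹) * n⁻¹
    group
  have h2 := classInner_restrict_conjOn hN (isClassFunction_of_isIrrCharacter hχ)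
    (⟨n, hnA⟩ : A)⁻¹ (th hMA ((τ.1 : IrrCharacter M) : M → ℂ))
  rw [h1, classInner_rs_bridge, classInner_rs_bridge] at h2
  rw [h2]
  exact h

include hMP hPA hNA hn hP in
/-- The partition of the real characters of odd degree. -/
theorem card_re_eq_sum (hnN : ∀ n ∈ Nr P, ∀ m ∈ M, n * m * n⁻¹ ∈ M)
    [Fintype (Quotient (relSetoid hMP hnN))] :
    Nat.card (Re A) = ∑ c : Quotient (relSetoid hMP hnN),
      Nat.card {χ : Re A // classInner (rs (hMP.trans hPA) ((χ.1 : IrrCharacter A) : A → ℂ))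
        ((c.out.1 : IrrCharacter M) : M → ℂ) ≠ 0} := by
  have h0 := finite_irrCharacter (G := A)
  have h00 : Finite (Re A) := Subtype.finite
  let ov : Quotient (relSetoid hMP hnN) → Re A → Prop := fun c χ =>
    classInner (rs (hMP.trans hPA) ((χ.1 : IrrCharacter A) : A → ℂ))
      ((c.out.1 : IrrCharacter M) : M → ℂ) ≠ 0
  suffices hex : ∀ χ, ∃! c, ov c χ from card_eq_sum_fiber ov hex
  intro χ
  obtain ⟨τ, hτ⟩ := exists_RR_over hMP hPA hP χ
  refine ⟨Quotient.mk (relSetoid hMP hnN) τ, ?_, ?_⟩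
  · have h1 : rel hMP (Quotient.mk (relSetoid hMP hnN) τ).out τ :=
      Quotient.mk_out (s := relSetoid hMP hnN) τ
    have h2 : rel hMP τ (Quotient.mk (relSetoid hMP hnN) τ).out :=
      (relSetoid hMP hnN).symm h1
    exact over_of_rel hMP hPA hNA hn χ.1.2 h2 hτ
  · intro c hc
    have h1 : rel hMP c.out τ := rel_of_over hMP hPA hNA hn hP χ.1.2 _ _ hc hτ
    rw [← Quotient.out_eq c]
    exact Quotient.sound (s := relSetoid hMP hnN) h1

include hMP hPA hP in
/-- The extension of `τ` to its stabilizer, by transfer. -/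
theorem exists_lam {τ : M → ℂ} (hτ : IsIrrCharacter M τ) (β : P →* ℂˣ)
    (hτβ : ∀ m : M, τ m = ((β ⟨m, hMP m.2⟩ : ℂˣ) : ℂ)) (hτ2 : ∀ m : M, τ m * τ m = 1) :
    ∃ lam : stab M A hn τ →* ℂˣ,
      (∀ m : M, ((lam ⟨m, le_stab' (hMP.trans hPA) hn hτ m.2⟩ : ℂˣ) : ℂ) = τ m) ∧
      ((∀ x, β x * β x = 1) → ∀ t, lam t * lam t = 1) := by
  have hPT : P ≤ stab M A hn τ := fun p hp =>
    ⟨hPA hp, fun q q' hq => invariant_of_ext (hMP := hMP) hτβ hp q q' hq⟩
  have hMT : M ≤ stab M A hn τ := le_stab' (hMP.trans hPA) hn hτ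
  have hodd := (hP.subgroupOf hPT).2
  let K : Subgroup (stab M A hn τ) := P.subgroupOf (stab M A hn τ)
  let ϕ : K →* ℂˣ := β.comp (Subgroup.subgroupOfEquivOfLe hPT).toMonoidHom
  have hNn : (M.subgroupOf (stab M A hn τ)).Normal := by
    refine ⟨fun m hm t => ?_⟩
    rw [Subgroup.mem_subgroupOf] at hm ⊢
    exact hn t (stab_le t.2) m hm
  have hNK : M.subgroupOf (stab M A hn τ) ≤ K := fun m hm => by
    rw [Subgroup.mem_subgroupOf] at hm
    exact hMP hm
  refine ⟨ϕ.transfer, ?_, ?_⟩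
  · intro m
    have ha : β ⟨m, hMP m.2⟩ * β ⟨m, hMP m.2⟩ = 1 := by
      apply Units.ext
      rw [Units.val_mul, Units.val_one, ← hτβ, hτ2]
    have h1 := Cfsg.Agent.Lib.CharDeep.LinearChar.transfer_eq_pow_of_normal ϕ
      (M.subgroupOf (stab M A hn τ)) hNK (x := ⟨m, hMT m.2⟩)
      (by rw [Subgroup.mem_subgroupOf]; exact m.2) (β ⟨m, hMP m.2⟩) (by
        intro g h
        apply Units.ext
        have hgm : (g : Γ)⁻¹ * m * g ∈ M := by
          have := hn (g : Γ)⁻¹ (A.inv_mem (stab_le g.2)) m m.2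
          simpa using this
        have h2 : ((ϕ ⟨g⁻¹ * ⟨m, hMT m.2⟩ * g, h⟩ : ℂˣ) : ℂ) = τ ⟨_, hgm⟩ := by
          rw [hτβ]
          rfl
        rw [h2, ← hτβ]
        exact (g.2.2 ⟨_, hgm⟩ m (by group)).symm ▸ rfl)
    rw [h1]
    have h3 : Odd K.index := by
      rwa [← Nat.not_even_iff_odd, even_iff_two_dvd]
    obtain ⟨k, hk⟩ := h3
    rw [hk, pow_succ, pow_mul, pow_two, ha, one_pow, one_mul, ← hτβ]
  · intro hβ2 t
    have := Cfsg.Agent.Lib.CharDeep.LinearChar.transfer_pow_eq_one ϕ (o := 2)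
      (fun k => by rw [pow_two]; exact hβ2 _) t
    rwa [pow_two] at this

end Over

end Cfsg.Agent.Lib.ReOdd.Orb
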