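import Cfsg.Agent.Lib.ReOdd.Basic

/-!
# Clifford correspondence for real characters of odd degree over a real linear character

Ambient group `Γ`; `M ≤ A` with `A` normalizing `M`, a linear character `τ` of `M` with `τ ^ 2 = 1`,
and `T` its stabilizer in `A`.  If `τ` extends to `lam : T →* ℂˣ` with `lam ^ 2 = 1` and `T / M ≅ Q`
then the real characters of odd degree of `A` over `τ` correspond to the ones of `Q`
(provided `[A : T]` is odd).
-/

set_option autoImplicit false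
set_option linter.unusedSectionVars false
set_option linter.style.haveILetI false

namespace Cfsg.Agent.Lib.ReOdd.Over

open Module Finset
open Cfsg Cfsg.Agent.Lib.Char.Basic Cfsg.Agent.Lib.Char.Ortho Cfsg.Agent.Lib.Char.Complete
open Cfsg.Agent.Lib.Char.Degree Cfsg.Agent.Lib.Blk89.Basic
open Cfsg.Agent.Lib.Char.Conj Cfsg.Agent.Lib.Char.Clifford Cfsg.Agent.Lib.Char.FrobSchur
open Cfsg.Agent.Lib.Char.Induced Cfsg.Agent.Lib.DGN.Basic Cfsg.Agent.Lib.ReOdd.Basic
open scoped Classical ComplexConjugate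

universe u

variable {Γ : Type u} [Group Γ] [Fintype Γ]

section Ind

theorem extendByZero_conj {X : Type u} [Group X] (H : Subgroup X) (θ : H → ℂ) (g : X) :
    conj (extendByZero H θ g) = extendByZero H (fun t => conj (θ t)) g := by
  by_cases hg : g ∈ H
  · rw [extendByZero_of_mem H _ hg, extendByZero_of_mem H _ hg]
  · rw [extendByZero_of_not_mem H _ hg, extendByZero_of_not_mem H _ hg, map_zero]

theorem indFun_conj {X : Type u} [Group X] [Fintype X] (H : Subgroup X) (θ : H → ℂ) (g : X) :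
    conj (indFun H θ g) = indFun H (fun t => conj (θ t)) g := by
  rw [indFun_apply, indFun_apply, map_mul, map_sum]
  have h : conj ((Nat.card H : ℂ)⁻¹) = (Nat.card H : ℂ)⁻¹ := by simp
  rw [h]
  congr 1
  exact Finset.sum_congr rfl fun x _ => extendByZero_conj _ _ _

variable {T A : Subgroup Γ} (h : T ≤ A)

theorem ind_conj (ψ : T → ℂ) (g : A) :
    conj (ind h ψ g) = ind h (fun t => conj (ψ t)) g := by
  unfold ind
  exact indFun_conj _ _ _

theorem im_ind {ψ : T → ℂ} (hr : ∀ t, (ψ t).im = 0) (g : A) : (ind h ψ g).im = 0 := by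
  rw [← Complex.conj_eq_iff_im, ind_conj]
  have : (fun t => conj (ψ t)) = ψ := by
    funext t
    exact Complex.conj_eq_iff_im.mpr (hr t)
  rw [this]

theorem charDegree_ind {ψ : T → ℂ} (hψ : IsCharacter T ψ) :
    charDegree (ind h ψ) = (T.subgroupOf A).index * charDegree ψ := by
  have h1 := charDegree_natCast (isCharacter_ind h hψ)
  have h2 := charDegree_natCast hψ
  have h3 : ind h ψ 1 = ((T.subgroupOf A).index : ℂ) * ψ 1 := by
    unfold ind
    rw [indFun_one]
    simp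
  rw [h3, ← h2] at h1
  exact_mod_cast h1

end Ind

section Main

variable {M A : Subgroup Γ} (hMA : M ≤ A) (hn : ∀ a ∈ A, ∀ m ∈ M, a * m * a⁻¹ ∈ M) {τ : M → ℂ}
  (hτ : IsIrrCharacter M τ)

/-- Clifford for a stabilizer. -/
theorem rs_eq_smul {ψ : stab M A hn τ → ℂ} (hψ : IsIrrCharacter _ ψ)
    (hcon : classInner (rs (le_stab' hMA hn hτ) ψ) τ ≠ 0) :
    rs (le_stab' hMA hn hτ) ψ = classInner (rs (le_stab' hMA hn hτ) ψ) τ • τ := by
  classical
  have hMT : M ≤ stab M A hn τ := le_stab' hMA hn hτ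
  let N : Subgroup (stab M A hn τ) := M.subgroupOf (stab M A hn τ)
  have hN : N.Normal := by
    refine ⟨fun m hm t => ?_⟩
    rw [Subgroup.mem_subgroupOf] at hm ⊢
    exact hn t (stab_le t.2) m hm
  let eqv : N ≃* M := Subgroup.subgroupOfEquivOfLe hMT
  let ϑ : N → ℂ := τ ∘ eqv
  have hϑ : IsIrrCharacter N ϑ := isIrrCharacter_comp_mulEquiv eqv hτ
  letI : Fintype N := Fintype.ofFinite _
  have hres : (fun n : N => ψ n) = rs hMT ψ ∘ eqv := by
    funext n
    rfl
  have hinner : classInner (fun n : N => ψ n) ϑ = classInner (rs hMT ψ) τ := by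
    rw [hres]
    exact classInner_comp_mulEquiv eqv _ _
  have horb : orbitFinset hN ϑ = {ϑ} := by
    ext φ
    rw [mem_orbitFinset, Finset.mem_singleton]
    constructor
    · rintro ⟨t, rfl⟩
      funext n
      rw [conjOn_apply]
      exact t.2.2 (eqv n) (eqv ⟨t * n * t⁻¹, hN.conj_mem n n.2 t⟩) rfl
    · rintro rfl
      exact ⟨1, conjOn_one hN ϑ⟩
  have hc := clifford_restrict hN hψ hϑ (by rw [hinner]; exact hcon)
  rw [horb, Finset.sum_singleton, hinner] at hc
  funext n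
  have := congrFun hc (eqv.symm n)
  have h3 : ((eqv.symm n : N) : stab M A hn τ) = ⟨n, hMT n.2⟩ := by
    apply Subtype.ext
    have h4 := congrArg Subtype.val (eqv.apply_symm_apply n)
    exact h4
  simp only [h3, Pi.smul_apply, ϑ, Function.comp, MulEquiv.apply_symm_apply] at this
  simpa using this

/-- Conjugate of a function over a real `τ`. -/
theorem classInner_conj_conj {X : Type u} [Group X] [Fintype X] (a b : X → ℂ) :
    classInner (fun g => conj (a g)) (fun g => conj (b g)) = conj (classInner a b) := by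
  rw [classInner_def, classInner_def, map_mul, map_sum]
  have h : conj ((Nat.card X : ℂ)⁻¹) = (Nat.card X : ℂ)⁻¹ := by simp
  rw [h]
  congr 1
  refine Finset.sum_congr rfl fun g _ => ?_
  rw [map_mul]

/-- The conjugate of a character over a real `τ` is over `τ`. -/
theorem conj_over (hτr : ∀ m, (τ m).im = 0) {ψ : stab M A hn τ → ℂ}
    (hcon : classInner (rs (le_stab' hMA hn hτ) ψ) τ ≠ 0) :
    classInner (rs (le_stab' hMA hn hτ) (fun t => conj (ψ t))) τ ≠ 0 := by
  have h1 : τ = fun m => conj (τ m) := by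
    funext m
    exact (Complex.conj_eq_iff_im.mpr (hτr m)).symm
  intro h0
  apply hcon
  have h2 := classInner_conj_conj (rs (le_stab' hMA hn hτ) ψ) τ
  have h3 : (fun g => conj (rs (le_stab' hMA hn hτ) ψ g)) =
      rs (le_stab' hMA hn hτ) (fun t => conj (ψ t)) := rfl
  rw [h3, ← h1, h0] at h2
  exact (map_eq_zero _).mp h2.symm

/-- An irreducible character over a real `τ` with real induced character is real. -/
theorem real_of_ind_real (hτr : ∀ m, (τ m).im = 0) {ψ : stab M A hn τ → ℂ}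
    (hψ : IsIrrCharacter _ ψ) (hcon : classInner (rs (le_stab' hMA hn hτ) ψ) τ ≠ 0)
    (hr : ∀ g, (ind (stab_le (hQn := hn) (lam := τ)) ψ g).im = 0) (t : stab M A hn τ) :
    (ψ t).im = 0 := by
  have h1 : (fun t => conj (ψ t)) = ψ := by
    apply ind_inj hMA hn hτ (isIrr_conj hψ) hψ (conj_over hMA hn hτ hτr hcon) hcon
    funext g
    rw [← ind_conj]
    exact Complex.conj_eq_iff_im.mpr (hr g)
  exact Complex.conj_eq_iff_im.mp (congrFun h1 t)

variable {Q : Type u} [Group Q]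

/-- A twisted character of `T` descends to `Q`. -/
theorem exists_descend (lam : stab M A hn τ →* ℂˣ)
    (hlamM : ∀ m : M, ((lam ⟨m, le_stab' hMA hn hτ m.2⟩ : ℂˣ) : ℂ) = τ m)
    (hτ2 : ∀ m : M, τ m * τ m = 1) (f : stab M A hn τ →* Q) (hf : Function.Surjective f)
    (hker : ∀ t : stab M A hn τ, f t = 1 → (t : Γ) ∈ M) {ψ : stab M A hn τ → ℂ}
    (hψ : IsIrrCharacter _ ψ) (hcon : classInner (rs (le_stab' hMA hn hτ) ψ) τ ≠ 0) :
    ∃ φ : Q → ℂ, IsIrrCharacter Q φ ∧ ∀ t, ((lam t : ℂˣ) : ℂ) * ψ t = φ (f t) := by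
  have hirr := Cfsg.Agent.Lib.Blk89.Linear.isIrr_hom_mul hψ lam
  obtain ⟨φ, hφ, hφeq⟩ := Cfsg.Agent.Lib.Char.Linear.isIrrCharacter_descend f hf hirr (by
    intro k hk
    have hkM := hker k hk
    have h1 : ψ k = classInner (rs (le_stab' hMA hn hτ) ψ) τ * τ ⟨k, hkM⟩ :=
      congrFun (rs_eq_smul hMA hn hτ hψ hcon) ⟨k, hkM⟩
    have h2 : ψ 1 = classInner (rs (le_stab' hMA hn hτ) ψ) τ * τ 1 :=
      congrFun (rs_eq_smul hMA hn hτ hψ hcon) 1
    have h3 : ((lam k : ℂˣ) : ℂ) = τ ⟨k, hkM⟩ := hlamM ⟨k, hkM⟩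
    have h4 : ((lam 1 : ℂˣ) : ℂ) = τ 1 := hlamM 1
    have h7 : τ 1 = 1 := by
      rw [← h4]
      simp
    simp only [map_one, Units.val_one, one_mul]
    rw [h3, h1, h2, h7]
    have := hτ2 ⟨k, hkM⟩
    linear_combination (classInner (rs (le_stab' hMA hn hτ) ψ) τ) * this)
  refine ⟨φ, hφ, fun t => ?_⟩
  exact congrFun hφeq t

/-- A pull back twisted by `lam` lies over `τ`. -/
theorem twist_over (lam : stab M A hn τ →* ℂˣ)
    (hlamM : ∀ m : M, ((lam ⟨m, le_stab' hMA hn hτ m.2⟩ : ℂˣ) : ℂ) = τ m)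
    (f : stab M A hn τ →* Q) (hker : ∀ t : stab M A hn τ, (t : Γ) ∈ M → f t = 1) {φ : Q → ℂ}
    (hφ : IsIrrCharacter Q φ) :
    classInner (rs (le_stab' hMA hn hτ) (fun t => ((lam t : ℂˣ) : ℂ) * φ (f t))) τ ≠ 0 := by
  have h1 : rs (le_stab' hMA hn hτ) (fun t => ((lam t : ℂˣ) : ℂ) * φ (f t)) = φ 1 • τ := by
    funext m
    simp only [Pi.smul_apply, smul_eq_mul]
    show ((lam ⟨m, le_stab' hMA hn hτ m.2⟩ : ℂˣ) : ℂ) * φ (f ⟨m, le_stab' hMA hn hτ m.2⟩) = φ 1 * τ m
    rw [hlamM m, hker ⟨m, le_stab' hMA hn hτ m.2⟩ m.2, mul_comm]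
  rw [h1, classInner_smul_left, classInner_self_of_isIrr hτ, mul_one]
  exact irr_one_ne_zero hφ

/-- **The count of real characters of odd degree over `τ`.** -/
theorem card_over (lam : stab M A hn τ →* ℂˣ) (hlam2 : ∀ t, lam t * lam t = 1)
    (hlamM : ∀ m : M, ((lam ⟨m, le_stab' hMA hn hτ m.2⟩ : ℂˣ) : ℂ) = τ m)
    (f : stab M A hn τ →* Q) (hf : Function.Surjective f)
    (hker : ∀ t : stab M A hn τ, f t = 1 ↔ (t : Γ) ∈ M)
    (hodd : ¬ 2 ∣ ((stab M A hn τ).subgroupOf A).index) :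
    Nat.card {χ : Re A // classInner (rs hMA ((χ.1 : IrrCharacter A) : A → ℂ)) τ ≠ 0} =
      Nat.card (Re Q) := by
  have hτ2 : ∀ m : M, τ m * τ m = 1 := by
    intro m
    rw [← hlamM m, ← Units.val_mul, hlam2, Units.val_one]
  have hτr : ∀ m, (τ m).im = 0 := by
    intro m
    rw [← hlamM m]
    exact im_eq_zero_of_hom_mul_self hlam2 _
  have hlamr := im_eq_zero_of_hom_mul_self hlam2
  have hodd' : Odd ((stab M A hn τ).subgroupOf A).index := by
    rwa [← Nat.not_even_iff_odd, even_iff_two_dvd]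
  have hTA : stab M A hn τ ≤ A := stab_le
  -- the twisted pull back
  let ξ : Re Q → stab M A hn τ → ℂ := fun ζ t => ((lam t : ℂˣ) : ℂ) * (ζ.1 : Q → ℂ) (f t)
  have hξirr : ∀ ζ, IsIrrCharacter _ (ξ ζ) := fun ζ =>
    Cfsg.Agent.Lib.Blk89.Linear.isIrr_hom_mul
      (Cfsg.Agent.Lib.Char.Conj.isIrrCharacter_comp f hf ζ.1.2) lam
  have hξcon : ∀ ζ, classInner (rs (le_stab' hMA hn hτ) (ξ ζ)) τ ≠ 0 := fun ζ =>
    twist_over hMA hn hτ lam hlamM f (fun t ht => (hker t).mpr ht) ζ.1.2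
  have hξreal : ∀ ζ t, (ξ ζ t).im = 0 := by
    intro ζ t
    simp only [ξ, Complex.mul_im, hlamr t, ζ.2.1 (f t), mul_zero, zero_mul, add_zero]
  have hξdeg : ∀ ζ, Odd (charDegree (ξ ζ)) := by
    intro ζ
    have h1 : charDegree (ξ ζ) = charDegree ((ζ.1 : Q → ℂ) ∘ f) := charDegree_mul_hom lam
    rw [h1, charDegree_comp]
    exact ζ.2.2
  let F : Re Q → {χ : Re A // classInner (rs hMA ((χ.1 : IrrCharacter A) : A → ℂ)) τ ≠ 0} :=
    fun ζ => ⟨⟨⟨ind hTA (ξ ζ), isIrr_ind hMA hn hτ (hξirr ζ) (hξcon ζ)⟩, im_ind hTA (hξreal ζ), by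
        show Odd (charDegree (ind hTA (ξ ζ)))
        rw [charDegree_ind hTA (isCharacter_of_isIrrCharacter (hξirr ζ))]
        exact hodd'.mul (hξdeg ζ)⟩, by
        show classInner (rs hMA (ind hTA (ξ ζ))) τ ≠ 0
        rw [classInner_rs_ind hMA hn hτ (hξirr ζ) (hξcon ζ)]
        exact hξcon ζ⟩
  refine (Nat.card_eq_of_bijective F ⟨?_, ?_⟩).symm
  · intro a b hab
    have h1 : ind hTA (ξ a) = ind hTA (ξ b) :=
      congrArg (fun z : {χ : Re A // classInner (rs hMA ((χ.1 : IrrCharacter A) : A → ℂ)) τ ≠ 0} =>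
        ((z.1.1 : IrrCharacter A) : A → ℂ)) hab
    have h2 := ind_inj hMA hn hτ (hξirr a) (hξirr b) (hξcon a) (hξcon b) h1
    apply Subtype.ext
    apply Subtype.ext
    funext q
    obtain ⟨t, rfl⟩ := hf q
    have h3 := congrFun h2 t
    simp only [ξ] at h3
    exact mul_left_cancel₀ (Units.ne_zero _) h3
  · rintro ⟨χ, hχ⟩
    obtain ⟨ψ, hψ, hind, hcon⟩ := exists_ind hMA hn hτ χ.1.2 hχ
    have hψreal : ∀ t, (ψ t).im = 0 := real_of_ind_real hMA hn hτ hτr hψ hcon (by
      intro g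
      rw [hind]
      exact χ.2.1 g)
    have hψdeg : Odd (charDegree ψ) := by
      have h1 := χ.2.2
      rw [← hind, charDegree_ind hTA (isCharacter_of_isIrrCharacter hψ)] at h1
      exact (Nat.odd_mul.mp h1).2
    obtain ⟨φ, hφ, hφeq⟩ := exists_descend hMA hn hτ lam hlamM hτ2 f hf
      (fun t ht => (hker t).mp ht) hψ hcon
    have hφreal : ∀ q, (φ q).im = 0 := by
      intro q
      obtain ⟨t, rfl⟩ := hf q
      rw [← hφeq]
      simp only [Complex.mul_im, hlamr t, hψreal t, mul_zero, zero_mul, add_zero]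
    have hφdeg : Odd (charDegree φ) := by
      rw [← charDegree_comp f]
      have h1 : φ ∘ f = fun t => ((lam t : ℂˣ) : ℂ) * ψ t := by
        funext t
        exact (hφeq t).symm
      rw [h1, charDegree_mul_hom]
      exact hψdeg
    refine ⟨⟨⟨φ, hφ⟩, hφreal, hφdeg⟩, ?_⟩
    apply Subtype.ext
    apply Subtype.ext
    apply Subtype.ext
    show ind hTA (ξ _) = _
    rw [← hind]
    congr 1
    funext t
    simp only [ξ]
    rw [← hφeq, ← mul_assoc, ← Units.val_mul, hlam2, Units.val_one, one_mul]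

end Main

end Cfsg.Agent.Lib.ReOdd.Over
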